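import Cfsg.Agent.PM.Pr3
import Cfsg.Agent.H3.Values
import Cfsg.Agent.H3.Linear

/-! The centraliser ring of a permutation representation. -/
namespace PM
open MulAction Function Cfsg H3 Matrix
open scoped Kronecker ComplexConjugate

theorem idem_zero {ι : Type*} [Fintype ι] [DecidableEq ι] {X : Matrix ι ι ℂ} (h : X * X = X)
    (h0 : X.trace = 0) : X = 0 := by
  have h1 : IsIdempotentElem (toLin' X) := by
    change toLin' X * toLin' X = _
    rw [Module.End.mul_eq_comp, ← toLin'_mul, h]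
  have := (LinearMap.IsIdempotentElem.isProj_range _ h1).trace
  rw [trace_toLin'_eq, h0, eq_comm, Nat.cast_eq_zero, Submodule.finrank_eq_zero,
    LinearMap.range_eq_bot] at this
  exact toLin'.injective (by simpa using this)

theorem idem_one {ι : Type*} [Fintype ι] [DecidableEq ι] {X Y : Matrix ι ι ℂ} (h : X * X = X)
    (h0 : X.trace = 1) (hc : X * Y = Y * X) : X * Y = (X * Y).trace • X := by
  have h1 : IsIdempotentElem (toLin' X) := by
    change toLin' X * toLin' X = _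
    rw [Module.End.mul_eq_comp, ← toLin'_mul, h]
  have h2 := (LinearMap.IsIdempotentElem.isProj_range _ h1).trace
  rw [trace_toLin'_eq, h0, eq_comm, Nat.cast_eq_one, finrank_eq_one_iff'] at h2
  obtain ⟨⟨v, hv⟩, -, h3⟩ := h2
  obtain ⟨u, rfl⟩ := hv
  obtain ⟨c, hc'⟩ := h3 ⟨_, ⟨Y *ᵥ u, rfl⟩⟩
  have h4 : c • X *ᵥ u = X *ᵥ Y *ᵥ u := congrArg Subtype.val hc'
  have : X * Y = c • X := toLin'.injective (LinearMap.ext fun w => by
    obtain ⟨a, ha⟩ := h3 ⟨_, ⟨w, rfl⟩⟩
    have h5 : a • X *ᵥ u = X *ᵥ w := congrArg Subtype.val ha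
    simp only [toLin'_apply, smul_mulVec]
    rw [hc, ← mulVec_mulVec, ← h5, mulVec_smul, mulVec_mulVec, ← hc, ← mulVec_mulVec, ← h4,
      smul_comm])
  rw [this, trace_smul, h0]; simp

theorem trace_int {ι : Type*} [Fintype ι] [DecidableEq ι] {X Y : Matrix ι ι ℂ} (h : X * X = X)
    (hc : X * Y = Y * X) (hY : IsIntegral ℤ Y) : IsIntegral ℤ (X * Y).trace := by
  rw [trace_eq_sum_roots_charpoly]
  refine IsIntegral.multiset_sum fun μ hμ => ?_
  by_cases μ0 : μ = 0
  · rw [μ0]; exact isIntegral_zero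
  have h1 : Module.End.HasEigenvalue (toLin' (X * Y)) μ := by
    rw [Module.End.hasEigenvalue_iff_isRoot_charpoly, charpoly_toLin']
    exact (Polynomial.mem_roots (charpoly_monic _).ne_zero).1 hμ
  obtain ⟨v, hv⟩ := h1.exists_hasEigenvector
  have h2 : (X * Y) *ᵥ v = μ • v := hv.apply_eq_smul
  have h3 : X *ᵥ v = v := smul_right_injective _ μ0 (by
    simp only
    rw [← mulVec_smul, ← h2, mulVec_mulVec, ← mul_assoc, h])
  have h4 : Module.End.HasEigenvector (toLinAlgEquiv' Y) μ v := ⟨by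
    rw [Module.End.mem_eigenspace_iff]
    change Y *ᵥ v = _
    rw [← h2, hc, ← mulVec_mulVec, h3], hv.2⟩
  obtain ⟨P, h5, h6⟩ := hY
  refine ⟨P, h5, ?_⟩
  have h7 := Module.End.aeval_apply_of_hasEigenvector (p := P.map (algebraMap ℤ ℂ)) h4
  rw [Polynomial.aeval_algEquiv, AlgHom.comp_apply, Polynomial.aeval_map_algebraMap,
    show Polynomial.aeval Y P = 0 from h6, map_zero, LinearMap.zero_apply, eq_comm,
    smul_eq_zero, Polynomial.eval_map] at h7
  exact h7.resolve_right hv.2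

variable {G Ω : Type*} [Group G] [Fintype G] [Fintype Ω] [DecidableEq Ω] [MulAction G Ω]

/-- permutation matrix -/
def pm (Ω : Type*) [DecidableEq Ω] [MulAction G Ω] (g : G) : Matrix Ω Ω ℂ :=
  fun x y => if g • y = x then 1 else 0

/-- invariant matrices -/
def Inv (G : Type*) [Group G] [MulAction G Ω] (T : Matrix Ω Ω ℂ) : Prop :=
  ∀ (g : G) x y, T (g • x) (g • y) = T x y

/-- the trace function -/
def th (G : Type*) [Group G] [MulAction G Ω] (T : Matrix Ω Ω ℂ) (g : G) : ℂ := ∑ y, T y (g • y)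

/-- the permutation character -/
noncomputable abbrev pc (G Ω : Type*) [Group G] [MulAction G Ω] : G → ℂ :=
  fun g => (Nat.card (fixedBy Ω g) : ℂ)

omit [Fintype G] in
theorem pm_mul_apply (g : G) (T : Matrix Ω Ω ℂ) (x y : Ω) : (pm Ω g * T) x y = T (g⁻¹ • x) y := by
  simp [mul_apply, pm, smul_eq_iff_eq_inv_smul]

omit [Fintype G] in
theorem mul_pm_apply (g : G) (T : Matrix Ω Ω ℂ) (x y : Ω) : (T * pm Ω g) x y = T x (g • y) := by
  simp [mul_apply, pm]

omit [Fintype G] in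
theorem pm_mul (g h : G) : pm Ω (g * h) = pm Ω g * pm Ω h := by
  ext x y; rw [mul_pm_apply]; simp [pm, mul_smul]

omit [Fintype G] in
theorem Inv.comm {T : Matrix Ω Ω ℂ} (h : Inv G T) (g : G) : pm Ω g * T = T * pm Ω g := by
  ext x y; rw [pm_mul_apply, mul_pm_apply, ← h g, smul_inv_smul]

omit [Fintype G] in
theorem trace_pm_mul (g : G) (T : Matrix Ω Ω ℂ) : (pm Ω g * T).trace = th G T g := by
  rw [trace_mul_comm]; simp [trace, mul_pm_apply, th]

omit [Fintype G] in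
theorem th_one : th G (1 : Matrix Ω Ω ℂ) = pc G Ω := by
  ext g
  simp only [th, one_apply, pc, Finset.sum_boole, Nat.card_eq_fintype_card, Fintype.card_subtype]
  congr 2; ext y; simp [eq_comm]

omit [Fintype G] [DecidableEq Ω] in
theorem th_at_one (T : Matrix Ω Ω ℂ) : th G T 1 = T.trace := by simp [th, trace]

omit [Fintype G] [DecidableEq Ω] in
theorem Inv.cls {T : Matrix Ω Ω ℂ} (h : Inv G T) : IsClassFunction G (th G T) := fun g u =>
  (Fintype.sum_equiv (MulAction.toPerm u) _ _ fun y => by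
    rw [← h u]; simp [mul_smul]).symm

omit [Fintype G] [DecidableEq Ω] in
theorem Inv.mul {S T : Matrix Ω Ω ℂ} (h : Inv G S) (h' : Inv G T) : Inv G (S * T) := fun g x y =>
  (Fintype.sum_equiv (MulAction.toPerm g) _ _ fun z => by
    change S x z * T z y = S (g • x) (g • z) * T (g • z) (g • y)
    rw [h g, h' g]).symm

omit [Fintype G] [DecidableEq Ω] [Fintype Ω] in
theorem Inv.sub {S T : Matrix Ω Ω ℂ} (h : Inv G S) (h' : Inv G T) : Inv G (S - T) := fun g x y => by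
  simp [h g, h' g]

omit [Fintype G] [DecidableEq Ω] [Fintype Ω] in
theorem Inv.tr {T : Matrix Ω Ω ℂ} (h : Inv G T) : Inv G Tᵀ := fun g x y => h g y x

omit [Fintype G] [DecidableEq Ω] [Fintype Ω] in
theorem Inv.ct {T : Matrix Ω Ω ℂ} (h : Inv G T) : Inv G Tᴴ := fun g x y => congrArg star (h g y x)

/-- coefficient of `χ` -/
noncomputable def tc (T : Matrix Ω Ω ℂ) (χ : G → ℂ) : ℂ := classInner (th G T) χ

theorem exists_X {χ : G → ℂ} (hχ : IsIrrCharacter G χ) : ∃ (n : ℕ) (X : Matrix (Fin n × Ω) (Fin n × Ω) ℂ),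
    X * X = X ∧ (∀ T, (X * ((1 : Matrix (Fin n) (Fin n) ℂ) ⊗ₖ T)).trace = tc T χ) ∧
    ∀ T, Inv G T → X * ((1 : Matrix (Fin n) (Fin n) ℂ) ⊗ₖ T) = ((1 : Matrix (Fin n) (Fin n) ℂ) ⊗ₖ T) * X := by
  obtain ⟨n, σ, -, e⟩ := irr_conj hχ
  let M : G → Matrix (Fin n × Ω) (Fin n × Ω) ℂ := fun g => LinearMap.toMatrix' (σ g) ⊗ₖ pm Ω g
  have hM : ∀ g h, M (g * h) = M g * M h := fun g h => by
    simp only [M, map_mul, pm_mul, ← mul_kronecker_mul, LinearMap.toMatrix'_mul]
  refine ⟨n, (Nat.card G : ℂ)⁻¹ • ∑ g, M g, ?_, fun T => ?_, fun T hT => ?_⟩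
  · have : ∀ g, M g * ∑ h, M h = ∑ h, M h := fun g => by
      rw [Finset.mul_sum]
      exact Fintype.sum_equiv (Equiv.mulLeft g) _ _ fun h => (hM g h).symm
    rw [smul_mul_smul_comm, Finset.sum_mul]
    simp only [this, Finset.sum_const, Finset.card_univ, ← Nat.card_eq_fintype_card]
    rw [← Nat.cast_smul_eq_nsmul ℂ, smul_smul, mul_assoc, inv_mul_cancel₀ (card_ne_zero' G), mul_one]
  · rw [smul_mul_assoc, trace_smul, Finset.sum_mul, trace_sum, tc, classInner, smul_eq_mul]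
    congr 1
    refine Finset.sum_congr rfl fun g _ => ?_
    rw [← mul_kronecker_mul, trace_kronecker, trace_pm_mul, mul_one, mul_comm, ← congrFun e g]
    congr 1
    exact (LinearMap.trace_eq_matrix_trace ℂ (Pi.basisFun ℂ (Fin n)) _).symm
  · rw [smul_mul_assoc, mul_smul_comm, Finset.sum_mul, Finset.mul_sum]
    congr 1
    refine Finset.sum_congr rfl fun g _ => ?_
    rw [← mul_kronecker_mul, ← mul_kronecker_mul, hT.comm, mul_one, one_mul]

theorem tc_one (χ : G → ℂ) : tc (1 : Matrix Ω Ω ℂ) χ = classInner (pc G Ω) χ := by rw [tc, th_one]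

theorem tc_zero {χ : G → ℂ} (hχ : IsIrrCharacter G χ) (h : classInner (pc G Ω) χ = 0)
    (T : Matrix Ω Ω ℂ) : tc T χ = 0 := by
  obtain ⟨n, X, h1, h2, -⟩ := exists_X (Ω := Ω) hχ
  have := h2 1
  rw [one_kronecker_one, mul_one, tc_one, h] at this
  rw [← h2, idem_zero h1 this]; simp

theorem tc_mul {χ : G → ℂ} (hχ : IsIrrCharacter G χ) (h : classInner (pc G Ω) χ = 1)
    {S T : Matrix Ω Ω ℂ} (hS : Inv G S) : tc (S * T) χ = tc S χ * tc T χ := by
  obtain ⟨n, X, h1, h2, h3⟩ := exists_X (Ω := Ω) hχ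
  have := h2 1
  rw [one_kronecker_one, mul_one, tc_one, h] at this
  rw [← h2, ← h2, ← h2, ← one_mul (1 : Matrix (Fin n) (Fin n) ℂ), mul_kronecker_mul, ← mul_assoc,
    idem_one h1 this (h3 S hS), smul_mul_assoc, trace_smul, one_mul, smul_eq_mul]

theorem tc_int {χ : G → ℂ} (hχ : IsIrrCharacter G χ) {T : Matrix Ω Ω ℤ}
    (hT : Inv G (T.map (Int.castRingHom ℂ))) : IsIntegral ℤ (tc (T.map (Int.castRingHom ℂ)) χ) := by
  obtain ⟨n, X, h1, h2, h3⟩ := exists_X (Ω := Ω) hχ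
  rw [← h2]
  refine trace_int h1 (h3 _ hT) ?_
  have := (Matrix.isIntegral ((1 : Matrix (Fin n) (Fin n) ℤ) ⊗ₖ T)).map
    (Int.castRingHom ℂ).mapMatrix.toIntAlgHom
  convert this
  ext ⟨a, x⟩ ⟨b, y⟩
  simp [one_apply]

theorem trace_eq_sum {T : Matrix Ω Ω ℂ} (hT : Inv G T) :
    T.trace = ∑ χ : IrrCharacter G, tc T χ.1 * χ.1 1 := by
  rw [← th_at_one (G := G), class_apply_eq_sum hT.cls]; rfl

theorem tc_sub (S T : Matrix Ω Ω ℂ) (χ : G → ℂ) : tc (S - T) χ = tc S χ - tc T χ := by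
  rw [tc, tc, tc, ← H3.inner_sub_left]
  congr 1; ext g; simp [th]

/-- multiplicity free -/
def MF (G Ω : Type*) [Group G] [Fintype G] [MulAction G Ω] : Prop :=
  ∀ χ : G → ℂ, IsIrrCharacter G χ → classInner (pc G Ω) χ = 0 ∨ classInner (pc G Ω) χ = 1

theorem MF.eq_zero (h : MF G Ω) {D : Matrix Ω Ω ℂ} (hD : Inv G D)
    (h0 : ∀ χ : G → ℂ, IsIrrCharacter G χ → classInner (pc G Ω) χ = 1 → tc D χ = 0) : D = 0 := by
  open scoped ComplexOrder in
  rw [← trace_mul_conjTranspose_self_eq_zero_iff, trace_eq_sum (hD.mul hD.ct)]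
  refine Finset.sum_eq_zero fun χ _ => ?_
  rcases h χ χ.2 with h1 | h1
  · rw [tc_zero χ.2 h1, zero_mul]
  · rw [tc_mul χ.2 h1 hD, h0 χ χ.2 h1]; simp

theorem MF.comm (h : MF G Ω) {S T : Matrix Ω Ω ℂ} (hS : Inv G S) (hT : Inv G T) :
    S * T = T * S :=
  sub_eq_zero.1 (h.eq_zero ((hS.mul hT).sub (hT.mul hS)) fun χ h1 h2 => by
    rw [tc_sub, tc_mul h1 h2 hS, tc_mul h1 h2 hT, mul_comm, sub_self])

theorem tc_tr {T : Matrix Ω Ω ℂ} (hT : Inv G T) {χ : G → ℂ} (hχ : IsCharacter G χ) :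
    tc Tᵀ χ = tc T fun g => conj (χ g) := by
  simp only [tc, classInner]
  congr 1
  refine Fintype.sum_equiv (Equiv.inv G) _ _ fun g => ?_
  rw [Equiv.inv_apply, char_inv hχ, Complex.conj_conj]
  congr 1
  exact Finset.sum_congr rfl fun y _ => by rw [transpose_apply, ← hT g⁻¹, inv_smul_smul]

theorem MF.symm (h : MF G Ω) (hr : ∀ χ : G → ℂ, IsIrrCharacter G χ →
    classInner (pc G Ω) χ = 1 → ∀ g, conj (χ g) = χ g) {T : Matrix Ω Ω ℂ} (hT : Inv G T) : Tᵀ = T :=
  sub_eq_zero.1 (h.eq_zero (hT.tr.sub hT) fun χ h1 h2 => by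
    rw [tc_sub, tc_tr hT (irr_char h1), funext (hr χ h1 h2), sub_self])

omit [Fintype G] in
theorem permRep_eq (g : G) : permRep ℂ G Ω g = toLin' (pm Ω g) := by
  ext x y
  simp [pm, Pi.single_apply, mulVec_single, inv_smul_eq_iff, eq_comm, eq_inv_smul_iff]

omit [Fintype G] in
theorem char_permRep : (permRep ℂ G Ω).character = pc G Ω := by
  ext g
  rw [Representation.character, permRep_eq, trace_toLin'_eq, ← th_one, ← trace_pm_mul, mul_one]

omit [Fintype G] in
theorem inv_iff {S : (Ω → ℂ) →ₗ[ℂ] (Ω → ℂ)} :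
    Inv G (LinearMap.toMatrix' S) ↔ ∀ g : G, S ∘ₗ permRep ℂ G Ω g = permRep ℂ G Ω g ∘ₗ S := by
  obtain ⟨T, rfl⟩ := toLin'.surjective S
  simp only [permRep_eq, ← toLin'_mul, LinearMap.toMatrix'_toLin', EmbeddingLike.apply_eq_iff_eq]
  refine ⟨fun h g => (h.comm g).symm, fun h g x y => ?_⟩
  rw [← mul_pm_apply g T, h, pm_mul_apply, inv_smul_smul]

theorem mf_of_comm (h : ∀ S T : Matrix Ω Ω ℂ, Inv G S → Inv G T → S * T = T * S) : MF G Ω := by
  rintro _ ⟨n, σ, hσ, rfl⟩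
  rw [← char_permRep, inner_character_eq_finrank]
  by_contra hc
  have h2 : 1 < Module.finrank ℂ (σ.IntertwiningMap (permRep ℂ G Ω)) := by
    by_contra h3
    rcases Nat.le_one_iff_eq_zero_or_eq_one.1 (not_lt.1 h3) with h | h <;> simp [h] at hc
  haveI : Nontrivial (σ.IntertwiningMap (permRep ℂ G Ω)) := Module.nontrivial_of_finrank_pos (R := ℂ) (by omega)
  obtain ⟨f, f0⟩ := exists_ne (0 : σ.IntertwiningMap (permRep ℂ G Ω))
  obtain ⟨f', hf'⟩ := exists_linearIndependent_pair_of_one_lt_finrank h2 f0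
  have finj : Injective f := (Representation.IsIrreducible.injective_or_eq_zero f).resolve_right f0
  obtain ⟨q, hq⟩ := f.toLinearMap.exists_leftInverse_of_injective (LinearMap.ker_eq_bot.2 finj)
  have fi : ∀ (f : σ.IntertwiningMap (permRep ℂ G Ω)) g v,
      f (σ g v) = permRep ℂ G Ω g (f v) := fun f g v => LinearMap.congr_fun (f.isIntertwining' g) v
  let p : (Ω → ℂ) →ₗ[ℂ] (Fin n → ℂ) :=
    (Nat.card G : ℂ)⁻¹ • ∑ g, σ g⁻¹ ∘ₗ q ∘ₗ permRep ℂ G Ω g
  have p1 : ∀ v, p (f v) = v := fun v => by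
    have : ∀ w, q (f w) = w := LinearMap.congr_fun hq
    simp only [p, LinearMap.smul_apply, LinearMap.sum_apply, LinearMap.comp_apply, ← fi, this,
      Representation.inv_self_apply, Finset.sum_const, Finset.card_univ, ← Nat.card_eq_fintype_card]
    rw [← Nat.cast_smul_eq_nsmul ℂ, smul_smul, inv_mul_cancel₀ (card_ne_zero' G), one_smul]
  have p2 : ∀ g v, p (permRep ℂ G Ω g v) = σ g (p v) := fun g v => by
    simp only [p, LinearMap.smul_apply, LinearMap.sum_apply, LinearMap.comp_apply, map_smul, map_sum]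
    congr 1
    refine Fintype.sum_equiv (Equiv.mulRight g) _ _ fun u => ?_
    simp [← Module.End.mul_apply, ← map_mul]
  obtain ⟨c, hc⟩ := schur_scalar σ (p ∘ₗ f'.toLinearMap) fun g => LinearMap.ext fun v => by
    change p (f' (σ g v)) = σ g (p (f' v))
    rw [fi, p2]
  have i1 : ∀ f : σ.IntertwiningMap (permRep ℂ G Ω),
      Inv G (LinearMap.toMatrix' (f.toLinearMap ∘ₗ p)) := fun f => inv_iff.2 fun g =>
    LinearMap.ext fun v => by
      change f (p (permRep ℂ G Ω g v)) = permRep ℂ G Ω g (f (p v))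
      rw [p2, fi]
  have := h _ _ (i1 f) (i1 f')
  rw [← LinearMap.toMatrix'_comp, ← LinearMap.toMatrix'_comp, EmbeddingLike.apply_eq_iff_eq] at this
  have e : c • f + (-1 : ℂ) • f' = 0 := by
    ext1; refine LinearMap.ext fun v => ?_
    have h3 := LinearMap.congr_fun this (f v)
    have h4 := LinearMap.congr_fun hc v
    change f (p (f' (p (f v)))) = f' (p (f (p (f v)))) at h3
    change p (f' v) = c • v at h4
    rw [p1, p1, h4, map_smul] at h3
    change c • f v + (-1 : ℂ) • f' v = 0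
    rw [h3]; simp
  simpa using (LinearIndependent.pair_iff.1 hf' _ _ e).2

end PM
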