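import Cfsg.Agent.PM.Ch
import Cfsg.Agent.S0669

/-! Orbital matrices. -/
namespace PM
open MulAction Function Cfsg H3 Matrix
open scoped ComplexConjugate

section
variable {G Ω : Type*} [Group G] [MulAction G Ω]

open Classical in
/-- orbital matrix -/
noncomputable def ob (G : Type*) [Group G] [MulAction G Ω] (a b : Ω) : Matrix Ω Ω ℤ :=
  fun x y => if ∃ g : G, g • a = x ∧ g • b = y then 1 else 0

/-- complex orbital matrix -/
noncomputable abbrev oc (G : Type*) [Group G] [MulAction G Ω] (a b : Ω) : Matrix Ω Ω ℂ :=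
  (ob G a b).map (Int.castRingHom ℂ)

open Classical in
theorem oc_apply (a b x y : Ω) : oc G a b x y = if ∃ g : G, g • a = x ∧ g • b = y then 1 else 0 := by
  simp [ob]

theorem oc_inv (a b : Ω) : Inv G (oc G a b) := fun g x y => by
  classical
  rw [oc_apply, oc_apply]
  refine if_congr ⟨fun ⟨u, h1, h2⟩ => ⟨g⁻¹ * u, by simp [mul_smul, h1], by simp [mul_smul, h2]⟩,
    fun ⟨u, h1, h2⟩ => ⟨g * u, by simp [mul_smul, h1], by simp [mul_smul, h2]⟩⟩ rfl rfl

open Classical in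
theorem oc_left (a b y : Ω) : oc G a b a y = if y ∈ orbit (stabilizer G a) b then 1 else 0 := by
  rw [oc_apply]
  exact if_congr ⟨fun ⟨u, h1, h2⟩ => ⟨⟨u, h1⟩, h2⟩, fun ⟨u, h2⟩ => ⟨u, u.2, h2⟩⟩ rfl rfl

end

variable {G Ω : Type*} [Group G] [Fintype G] [Fintype Ω] [DecidableEq Ω] [MulAction G Ω]

omit [DecidableEq Ω] in
theorem tc_add (S T : Matrix Ω Ω ℂ) (χ : G → ℂ) : tc (S + T) χ = tc S χ + tc T χ := by
  rw [tc, tc, tc, ← H3.inner_add_left]
  congr 1; ext g; simp [th, Finset.sum_add_distrib]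

omit [DecidableEq Ω] in
theorem tc_smul (c : ℂ) (T : Matrix Ω Ω ℂ) (χ : G → ℂ) : tc (c • T) χ = c * tc T χ := by
  rw [tc, tc, ← H3.inner_smul_left]
  congr 1; ext g; simp [th, Finset.mul_sum]

omit [DecidableEq Ω] in
theorem tc_ct {T : Matrix Ω Ω ℂ} (hT : Inv G T) {χ : G → ℂ} (hχ : IsCharacter G χ) :
    tc Tᴴ χ = conj (tc T χ) := by
  simp only [tc, classInner, map_mul, map_sum, map_inv₀, map_natCast]
  congr 1
  refine Fintype.sum_equiv (Equiv.inv G) _ _ fun g => ?_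
  rw [Equiv.inv_apply, char_inv hχ, Complex.conj_conj, th, th, map_sum]
  congr 1
  exact Finset.sum_congr rfl fun y _ => by
    rw [conjTranspose_apply, ← hT g⁻¹, inv_smul_smul]; rfl

/-- all ones -/
def Jm (Ω : Type*) : Matrix Ω Ω ℂ := fun _ _ => 1

omit [DecidableEq Ω] in
theorem tc_J (χ : G → ℂ) : tc (Jm Ω) χ = Fintype.card Ω * classInner (fun _ : G => (1 : ℂ)) χ := by
  rw [tc, ← H3.inner_smul_left]
  congr 1; ext g; simp [th, Jm]

omit [DecidableEq Ω] in
theorem inner_pc_one [IsPretransitive G Ω] [Nonempty Ω] : classInner (pc G Ω) (fun _ => 1) = 1 := by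
  rw [inner_perm_one, Nat.cast_eq_one, Nat.card_eq_one_iff_unique]
  exact ⟨(pretransitive_iff_subsingleton_quotient G Ω).1 inferInstance,
    ⟨Quotient.mk _ (Classical.arbitrary Ω)⟩⟩

theorem tc_row [IsPretransitive G Ω] [Nonempty Ω] {T : Matrix Ω Ω ℂ} (hT : Inv G T) {k : ℂ}
    (h : ∀ x, ∑ y, T x y = k) : tc T (fun _ : G => 1) = k := by
  have h1 := tc_mul isIrr_one inner_pc_one (T := Jm Ω) hT
  rw [show T * Jm Ω = k • Jm Ω by ext x y; simp [mul_apply, Jm, h], tc_smul, tc_J,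
    irr_inner_self isIrr_one] at h1
  exact (mul_right_cancel₀ (by simp) h1).symm

omit [Fintype G] [DecidableEq Ω] in
theorem oc_row [IsPretransitive G Ω] (a b x : Ω) :
    ∑ y, oc G a b x y = Nat.card (orbit (stabilizer G a) b) := by
  classical
  obtain ⟨g, rfl⟩ := exists_smul_eq G a x
  rw [← Fintype.sum_equiv (MulAction.toPerm g) (fun y => oc G a b a y) _ fun y =>
    (oc_inv a b g a y).symm]
  simp only [oc_left, Finset.sum_boole, Nat.card_eq_fintype_card, Fintype.card_subtype]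

omit [Fintype G] [DecidableEq Ω] in
theorem oc_trace {a b : Ω} (h : b ≠ a) : (oc G a b).trace = 0 :=
  Finset.sum_eq_zero fun x _ => by
    rw [Matrix.diag_apply, oc_apply, if_neg]
    rintro ⟨g, h1, h2⟩
    exact h (smul_left_cancel g (h2.trans h1.symm))

theorem tc_oc [IsPretransitive G Ω] (a b : Ω) :
    tc (oc G a b) (fun _ : G => 1) = Nat.card (orbit (stabilizer G a) b) :=
  haveI : Nonempty Ω := ⟨a⟩
  tc_row (oc_inv a b) (oc_row a b)

omit [DecidableEq Ω] in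
theorem dvd_subdeg [IsPretransitive G Ω] (f : ℕ) (hf : ∀ χ : G → ℂ, IsIrrCharacter G χ →
    χ ≠ (fun _ => 1) → classInner (pc G Ω) χ ≠ 0 → ∃ m : ℕ, χ 1 = (f : ℂ) * m) (a b : Ω)
    (hab : b ≠ a) : f ∣ Nat.card (orbit (stabilizer G a) b) := by
  classical
  have h1 := trace_eq_sum (oc_inv (G := G) a b)
  rw [oc_trace hab, ← Finset.add_sum_erase _ _ (Finset.mem_univ ⟨_, isIrr_one⟩)] at h1
  simp only [tc_oc, mul_one] at h1
  have : ∀ χ ∈ Finset.univ.erase (⟨_, isIrr_one⟩ : IrrCharacter G),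
      ∃ y, IsIntegral ℤ y ∧ tc (oc G a b) χ.1 * χ.1 1 = f * y := fun χ hχ => by
    by_cases h0 : classInner (pc G Ω) χ.1 = 0
    · exact ⟨0, isIntegral_zero, by rw [tc_zero χ.2 h0]; simp⟩
    · obtain ⟨m, hm⟩ := hf χ χ.2 (fun e => (Finset.mem_erase.1 hχ).1 (Subtype.ext e)) h0
      exact ⟨tc (oc G a b) χ.1 * m, (tc_int χ.2 (oc_inv a b)).mul (isIntegral_natCast m),
        by rw [hm]; ring⟩
  choose! y hy1 hy2 using this
  rw [Finset.sum_congr rfl hy2, ← Finset.mul_sum] at h1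
  have h2 := (IsIntegral.sum _ hy1).neg
  rcases Nat.eq_zero_or_pos f with rfl | f0
  · simp only [Nat.cast_zero, zero_mul, add_zero] at h1
    rw [show Nat.card (orbit (stabilizer G a) b) = 0 by exact_mod_cast h1.symm]
  · refine dvd_of_isIntegral_div f0.ne' ?_
    have f1 : (f : ℂ) ≠ 0 := by exact_mod_cast f0.ne'
    refine Eq.mpr (congrArg _ ?_) h2
    rw [div_eq_iff f1]
    linear_combination -h1

omit [DecidableEq Ω] in
theorem rank_eq [IsPretransitive G Ω] (a : Ω) : classInner (pc G Ω) (pc G Ω) =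
    Nat.card (orbitRel.Quotient (stabilizer G a) Ω) := by
  rw [← Cfsg.Agent.S0669.result, ← inner_perm_one]
  simp only [classInner, map_natCast, map_one, mul_one]
  congr 1
  refine Finset.sum_congr rfl fun g _ => ?_
  rw [← Nat.cast_mul, ← Nat.card_prod]
  congr 1
  refine Nat.card_congr ⟨fun x => ⟨(x.1, x.2), Prod.ext x.1.2 x.2.2⟩,
    fun x => (⟨x.1.1, congrArg Prod.fst x.2⟩, ⟨x.1.2, congrArg Prod.snd x.2⟩), fun _ => rfl,
    fun _ => rfl⟩

omit [DecidableEq Ω] in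
theorem pc_one : pc G Ω 1 = Fintype.card Ω := by
  simp [pc]

omit [DecidableEq Ω] in
theorem mult_nat [IsPretransitive G Ω] (a : Ω) : ∃ c : IrrCharacter G → ℕ,
    (∀ χ : IrrCharacter G, classInner (pc G Ω) χ = c χ) ∧ c ⟨_, isIrr_one⟩ = 1 ∧
    ∑ χ, c χ ^ 2 = Nat.card (orbitRel.Quotient (stabilizer G a) Ω) ∧
    ∑ χ, (c χ : ℂ) * χ.1 1 = Fintype.card Ω := by
  haveI : Nonempty Ω := ⟨a⟩
  obtain ⟨c, h1, -⟩ := char_eq_sum_nat (char_perm (G := G) Ω)
  refine ⟨c, h1, ?_, ?_, ?_⟩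
  · have := h1 ⟨_, isIrr_one⟩
    rw [inner_pc_one] at this
    exact_mod_cast this.symm
  · have := rank_eq (G := G) a
    rw [parseval (char_class (char_perm Ω))] at this
    simp only [h1, map_natCast, ← sq] at this
    exact_mod_cast this
  · rw [← pc_one (G := G), class_apply_eq_sum (f := pc G Ω) (char_class (char_perm Ω))]
    simp only [h1]

omit [DecidableEq Ω] in
theorem mf_of_deg [IsPretransitive G Ω] (a : Ω) (f : ℕ) (hf : ∀ χ : G → ℂ, IsIrrCharacter G χ →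
    χ ≠ (fun _ => 1) → classInner (pc G Ω) χ ≠ 0 → χ 1 = f) :
    MF G Ω ∧ ∀ b : Ω, b ≠ a → Nat.card (orbit (stabilizer G a) b) = f := by
  classical
  obtain ⟨c, h1, h2, h3, h4⟩ := mult_nat (G := G) a
  set o : IrrCharacter G := ⟨_, isIrr_one⟩
  let Q := orbitRel.Quotient (stabilizer G a) Ω
  letI : Fintype Q := Fintype.ofFinite _
  let q : Q := Quotient.mk _ a
  have hd := dvd_subdeg f (fun χ i j l => ⟨1, by rw [hf χ i j l]; simp⟩) a
  have e1 : Fintype.card Ω = 1 + f * ∑ χ ∈ Finset.univ.erase o, c χ := by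
    rw [← Finset.add_sum_erase _ _ (Finset.mem_univ o), h2] at h4
    have : ∀ χ ∈ Finset.univ.erase o, (c χ : ℂ) * χ.1 1 = f * c χ := fun χ hχ => by
      by_cases h0 : c χ = 0
      · simp [h0]
      · rw [hf χ χ.2 (fun e => (Finset.mem_erase.1 hχ).1 (Subtype.ext e))
          (by rw [h1]; exact_mod_cast h0), mul_comm]
    rw [Finset.sum_congr rfl this, ← Finset.mul_sum] at h4
    simp only [o, mul_one] at h4
    exact_mod_cast h4.symm
  have e2 : Fintype.card Ω = 1 + ∑ p ∈ Finset.univ.erase q, Nat.card p.orbit := by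
    rw [← Nat.card_eq_fintype_card, Nat.card_congr (selfEquivSigmaOrbits' (stabilizer G a) Ω),
      Nat.card_sigma, ← Finset.add_sum_erase _ _ (Finset.mem_univ q)]
    congr 1
    rw [Nat.card_eq_one_iff_unique]
    exact ⟨⟨fun ⟨_, ⟨u, rfl⟩⟩ ⟨_, ⟨v, rfl⟩⟩ => Subtype.ext (u.2.trans v.2.symm)⟩,
      ⟨⟨a, mem_orbit_self a⟩⟩⟩
  have nq : ∀ b, b ≠ a → (Quotient.mk _ b : Q) ∈ Finset.univ.erase q := fun b hb =>
    Finset.mem_erase.2 ⟨fun e => by
      obtain ⟨u, hu⟩ := Quotient.exact e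
      exact hb (hu.symm.trans u.2), Finset.mem_univ _⟩
  have e3 : ∀ p ∈ Finset.univ.erase q, f ≤ Nat.card p.orbit := fun p hp => by
    induction p using Quotient.inductionOn with | _ b =>
    haveI : Nonempty (orbit (stabilizer G a) b) := ⟨⟨b, mem_orbit_self b⟩⟩
    exact Nat.le_of_dvd (Nat.card_pos (α := orbit (stabilizer G a) b))
      (hd b fun e => (Finset.mem_erase.1 hp).1 (by rw [e]))
  have e4 : ∑ p ∈ Finset.univ.erase q, f = f * ∑ χ ∈ Finset.univ.erase o, c χ ^ 2 := by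
    rw [← Finset.add_sum_erase _ _ (Finset.mem_univ o), h2, Nat.card_eq_fintype_card] at h3
    rw [Finset.sum_const, Finset.card_erase_of_mem (Finset.mem_univ _), Finset.card_univ,
      smul_eq_mul, mul_comm, ← h3]
    simp
  have e5 : ∀ χ ∈ Finset.univ.erase o, c χ ≤ c χ ^ 2 := fun χ _ => Nat.le_self_pow two_ne_zero _
  have e6 := Finset.sum_le_sum e3
  have e7 := Nat.mul_le_mul_left f (Finset.sum_le_sum e5)
  refine ⟨fun χ hχ => ?_, fun b hb =>
    ((Finset.sum_eq_sum_iff_of_le e3).1 (by omega) _ (nq b hb)).symm⟩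
  by_cases h0 : classInner (pc G Ω) χ = 0
  · exact .inl h0
  right
  by_cases ho : χ = fun _ => 1
  · rw [ho, h1 o, h2]; simp
  have f0 : 0 < f := Nat.pos_of_ne_zero fun e => irr_one_ne_zero hχ (by simp [hf χ hχ ho h0, e])
  have := (Finset.sum_eq_sum_iff_of_le e5).1 (Nat.eq_of_mul_eq_mul_left f0 (by omega)) ⟨χ, hχ⟩
    (Finset.mem_erase.2 ⟨fun e => ho (congrArg Subtype.val e), Finset.mem_univ _⟩)
  rw [h1 ⟨χ, hχ⟩] at h0 ⊢
  rw [Nat.cast_eq_one]
  have h0' : c ⟨χ, hχ⟩ ≠ 0 := by exact_mod_cast h0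
  exact Nat.eq_of_mul_eq_mul_left (Nat.pos_of_ne_zero h0') (by rw [← sq, ← this, mul_one])

end PM
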