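import Cfsg.Agent.PM.E

namespace PM
open MulAction Function Subgroup
open scoped Pointwise

variable {G α : Type*} [Group G] [MulAction G α]

/-- generous `k`-transitivity -/
def Gen (G : Type*) [Group G] (α : Type*) [MulAction G α] (k : ℕ) : Prop :=
  ∀ s : Finset α, s.card = k + 1 → ∀ σ : Equiv.Perm s, ∃ g : G, ∀ x : s, g • (x : α) = σ x

theorem Gen.ext {k : ℕ} (h : Gen G α k) {s : Finset α} (hs : s.card = k + 1) (f : α → α)
    (h1 : ∀ x ∈ s, f x ∈ s) (h2 : Set.InjOn f s) : ∃ g : G, ∀ x ∈ s, g • x = f x := by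
  obtain ⟨g, hg⟩ := h s hs (Equiv.ofBijective (fun x => ⟨f x, h1 x x.2⟩)
    (Finite.injective_iff_bijective.1 fun x y e => Subtype.ext (h2 x.2 y.2 (congrArg Subtype.val e))))
  exact ⟨g, fun x hx => hg ⟨x, hx⟩⟩

theorem Gen.mt [Fintype α] {k : ℕ} (h : Gen G α k) (hk : k < Fintype.card α) :
    IsMultiplyPretransitive G α k := by
  classical
  refine mt_of_off fun s hs a b ha hb => ?_
  obtain ⟨t, h1, -, h2⟩ := Finset.exists_subsuperset_card_eq (s := insert a (insert b s))
    (t := Finset.univ) (n := k + 1) (Finset.subset_univ _) (by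
      have := Finset.card_insert_le a (insert b s)
      have := Finset.card_insert_le b s
      omega) (by rw [Finset.card_univ]; omega)
  obtain ⟨g, hg⟩ := h.ext h2 (Equiv.swap a b) (fun x hx => by
    rw [Equiv.swap_apply_def]
    split_ifs
    · exact h1 (by simp)
    · exact h1 (by simp)
    · exact hx) (Equiv.injective _).injOn
  refine ⟨g, fun x hx => ?_, by rw [hg a (h1 (by simp)), Equiv.swap_apply_left]⟩
  rw [hg x (h1 (by simp [hx])), Equiv.swap_apply_of_ne_of_ne (ne_of_mem_of_not_mem hx ha)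
    (ne_of_mem_of_not_mem hx hb)]

theorem Gen.orb [DecidableEq α] {k : ℕ} (h : Gen G α k) {s : Finset α} (hs : s.card = k) {a : α}
    (ha : a ∉ s) {g : G} (hg : g • s = s) : ∃ u : G, (∀ x ∈ s, u • x = x) ∧ u • a = g • a := by
  have h0 : ∀ x ∈ s, g⁻¹ • x ∈ s := fun x hx => by
    rwa [Finset.inv_smul_mem_iff, hg]
  obtain ⟨u, hu⟩ := h.ext (s := insert a s) (by rw [Finset.card_insert_of_notMem ha, hs])
    (fun x => if x = a then a else g⁻¹ • x) (fun x hx => by
      split_ifs with h1
      · simp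
      · exact Finset.mem_insert_of_mem (h0 x ((Finset.mem_insert.1 hx).resolve_left h1))) (by
      intro x hx y hy e
      simp only [Finset.coe_insert, Set.mem_insert_iff, SetLike.mem_coe] at hx hy e
      by_cases h1 : x = a <;> by_cases h2 : y = a <;> simp only [h1, h2, if_true, if_false] at e
      · rw [h1, h2]
      · exact absurd (e ▸ h0 y (hy.resolve_left h2)) ha
      · exact absurd (e ▸ h0 x (hx.resolve_left h1)) ha
      · exact MulAction.injective _ e)
  refine ⟨g * u, fun x hx => ?_, by rw [mul_smul, hu a (by simp), if_pos rfl]⟩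
  rw [mul_smul, hu x (by simp [hx]), if_neg (ne_of_mem_of_not_mem hx ha), smul_inv_smul]

end PM
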