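import Cfsg.Agent.PM.Jo

namespace PM
open MulAction Function Subgroup
open scoped Pointwise

theorem not_dvd_choose {p a k : ℕ} (hp : p.Prime) (h : p ^ a ∣ k) :
    ¬ p ∣ (k + (p ^ a - 1)).choose (p ^ a - 1) := by
  have h0 := pow_pos hp.pos a
  rw [Nat.add_choose_eq, ← Finset.add_sum_erase _ _
    (show (0, p ^ a - 1) ∈ Finset.HasAntidiagonal.antidiagonal (p ^ a - 1) by simp), Nat.dvd_add_left]
  · simp [hp.ne_one]
  · refine Finset.dvd_sum fun x hx => Dvd.dvd.mul_right ?_ _
    rw [Finset.mem_erase, Finset.HasAntidiagonal.mem_antidiagonal] at hx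
    obtain ⟨i, hi⟩ : ∃ i, x.1 = i + 1 := Nat.exists_eq_succ_of_ne_zero fun e => hx.1
      (Prod.ext e (by simp; omega))
    by_contra hc
    rcases k with _ | k
    · rw [hi] at hc; simp at hc
    have h1 : p ^ a ∣ (k + 1).choose (i + 1) * (i + 1) :=
      Nat.add_one_mul_choose_eq k i ▸ h.mul_right _
    have := Nat.le_of_dvd (by omega) ((Nat.Coprime.pow_left a
      ((Nat.Prime.coprime_iff_not_dvd hp).2 (hi ▸ hc))).dvd_of_dvd_mul_left h1)
    omega

variable {G α : Type*} [Group G] [MulAction G α] [Fintype α] [DecidableEq α]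

/-- `k`-homogeneous -/
def Hom (G α : Type*) [Group G] [MulAction G α] [DecidableEq α] (k : ℕ) : Prop :=
  ∀ s t : Finset α, s.card = k → t.card = k → ∃ g : G, g • s = t

theorem Hom.pred {k : ℕ} (hG : Hom G α (k + 1)) (hk : k + 1 ≤ Fintype.card α)
    (hq : ∀ q : ℕ, IsPrimePow q → q ∣ k + 1 → k + q ≤ Fintype.card α) : Hom G α k := by
  classical
  intro A B hA hB
  by_contra hn
  let U : Finset α → Prop := fun s => ∃ g : G, g • A = s
  let c : Finset α → ℕ := fun S => ((S.powersetCard k).filter U).card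
  have hc : ∀ S T : Finset α, S.card = k + 1 → T.card = k + 1 → c S = c T := fun S T hS hT => by
    obtain ⟨g, rfl⟩ := hG S T hS hT
    refine Finset.card_bij (fun s _ => g • s) (fun s hs => ?_)
      (fun s _ t _ e => MulAction.injective g e) fun t ht => ⟨g⁻¹ • t, ?_, by simp⟩
    · simp only [Finset.mem_filter, Finset.mem_powersetCard] at hs ⊢
      obtain ⟨⟨h1, h2⟩, u, rfl⟩ := hs
      exact ⟨⟨Finset.smul_finset_subset_smul_finset h1, by simpa using h2⟩, g * u, mul_smul _ _ _⟩
    · simp only [Finset.mem_filter, Finset.mem_powersetCard] at ht ⊢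
      obtain ⟨⟨h1, h2⟩, u, rfl⟩ := ht
      exact ⟨⟨by simpa using Finset.smul_finset_subset_smul_finset (a := g⁻¹) h1, by simpa using h2⟩,
        g⁻¹ * u, mul_smul _ _ _⟩
  obtain ⟨S, h1, -, h2⟩ := Finset.exists_subsuperset_card_eq (s := A) (t := Finset.univ)
    (n := k + 1) (Finset.subset_univ _) (by omega) hk
  obtain ⟨T, h3, -, h4⟩ := Finset.exists_subsuperset_card_eq (s := B) (t := Finset.univ)
    (n := k + 1) (Finset.subset_univ _) (by omega) hk
  have c0 : 0 < c S := Finset.card_pos.2 ⟨A, Finset.mem_filter.2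
    ⟨Finset.mem_powersetCard.2 ⟨h1, hA⟩, 1, one_smul _ _⟩⟩
  have c1 : c S < k + 1 := by
    rw [hc S T h2 h4]
    refine (Finset.card_lt_card (Finset.filter_ssubset.2
      ⟨B, Finset.mem_powersetCard.2 ⟨h3, hB⟩, hn⟩)).trans_le ?_
    rw [Finset.card_powersetCard, h4]; simp
  refine Nat.not_dvd_of_pos_of_lt c0 c1 ((Nat.dvd_iff_prime_pow_dvd_dvd _ _).2 fun p a hp h5 => ?_)
  rcases a with _ | a
  · simp
  have h0 := pow_pos hp.pos (a + 1)
  obtain ⟨M, -, hM⟩ := Finset.exists_subset_card_eq (s := (Finset.univ : Finset α))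
    (n := k + p ^ (a + 1)) (hq _ (hp.isPrimePow.pow (by omega)) h5)
  have := Finset.sum_card_bipartiteAbove_eq_sum_card_bipartiteBelow
    (s := (M.powersetCard k).filter U) (t := M.powersetCard (k + 1)) (fun s t => s ⊆ t)
  rw [Finset.sum_congr rfl (g := fun _ => p ^ (a + 1)), Finset.sum_congr (s₁ := M.powersetCard (k + 1)) rfl (g := fun _ => c S)]
    at this
  · simp only [Finset.sum_const, smul_eq_mul, Finset.card_powersetCard, hM] at this
    have h6 := not_dvd_choose hp h5
    rw [← Nat.choose_symm_add, show k + 1 + (p ^ (a + 1) - 1) = k + p ^ (a + 1) by omega] at h6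
    exact (Nat.Coprime.pow_left _ ((Nat.Prime.coprime_iff_not_dvd hp).2 h6)).dvd_of_dvd_mul_left
      (this ▸ dvd_mul_left _ _)
  · intro t ht
    rw [Finset.mem_powersetCard] at ht
    rw [hc S t h2 ht.2]
    congr 1
    ext s
    simp only [Finset.mem_bipartiteBelow, Finset.mem_filter, Finset.mem_powersetCard]
    exact ⟨fun h => ⟨⟨h.2, h.1.1.2⟩, h.1.2⟩, fun h => ⟨⟨⟨h.1.1.trans ht.1, h.1.2⟩, h.2⟩, h.1.1⟩⟩
  · intro s hs
    rw [Finset.mem_filter, Finset.mem_powersetCard] at hs
    have e : p ^ (a + 1) = (M \ s).card := by rw [Finset.card_sdiff_of_subset hs.1.1, hM, hs.1.2]; simp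
    rw [e]
    symm
    refine Finset.card_bij (fun x _ => insert x s) (fun x hx => ?_) (fun x hx y hy e => ?_)
      fun t ht => ?_
    · rw [Finset.mem_sdiff] at hx
      simp only [Finset.mem_bipartiteAbove, Finset.mem_powersetCard]
      exact ⟨⟨Finset.insert_subset hx.1 hs.1.1, by rw [Finset.card_insert_of_notMem hx.2, hs.1.2]⟩,
        Finset.subset_insert _ _⟩
    · exact (Finset.insert_inj (Finset.mem_sdiff.1 hx).2).1 e
    · simp only [Finset.mem_bipartiteAbove, Finset.mem_powersetCard] at ht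
      obtain ⟨x, hx, e⟩ := Finset.exists_eq_insert_iff.2 ⟨ht.2, by rw [ht.1.2, hs.1.2]⟩
      exact ⟨x, Finset.mem_sdiff.2 ⟨ht.1.1 (e ▸ Finset.mem_insert_self _ _), hx⟩, e⟩

theorem Hom.le {k : ℕ} (hG : Hom G α k) (hk : 2 * k ≤ Fintype.card α + 1) {j : ℕ} (hj : j ≤ k) :
    Hom G α j := by
  induction hj using Nat.decreasingInduction with
  | self => exact hG
  | of_succ i hi ih =>
    exact ih.pred (by omega) fun q _ h => by have := Nat.le_of_dvd (by omega) h; omega

end PM
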