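import Cfsg.Agent.PM.Pr2

namespace PM
open MulAction Function Subgroup Equiv
open scoped Pointwise

variable {α : Type*} [Fintype α] [DecidableEq α]

theorem jordan_cycle (G : Subgroup (Perm α)) (hG : IsPreprimitive G α) {p : ℕ} (hp : p.Prime)
    (hpn : p + 3 ≤ Fintype.card α) {g : Perm α} (hgc : g.IsCycle) (hgp : g.support.card = p)
    (hg : g ∈ G) : alternatingGroup α ≤ G := by
  haveI := Fact.mk hp
  let s : Set α := (g.support : Set α)ᶜ
  let F := fixingSubgroup G s
  let S := SubMulAction.ofFixingSubgroup G s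
  have ht : IsPretransitive F S := Perm.isPretransitive_of_isCycle_mem hgc hg
  have hS : Nat.card S = p := by
    rw [← hgp, ← Nat.card_eq_finsetCard]
    exact Nat.card_congr (Equiv.subtypeEquivRight fun x => by
      simp [S, SubMulAction.mem_ofFixingSubgroup_iff, s])
  have hs : s.ncard = (Fintype.card α - p - 1) + 1 := by
    rw [show s = ((g.supportᶜ : Finset α) : Set α) by simp [s], Set.ncard_coe_finset,
      Finset.card_compl, hgp]; omega
  haveI := hG.isMultiplyPreprimitive hs (by have := hp.two_le; rw [Nat.card_eq_fintype_card]; omega)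
    (IsPreprimitive.of_prime_card (hS ▸ hp))
  have hk : IsMultiplyPretransitive G α (Fintype.card α - p) :=
    isMultiplyPretransitive_of_le (n := Fintype.card α - p - 1 + 2) (by omega)
      (by have := hp.two_le; rw [Nat.card_eq_fintype_card]; omega)
  haveI : FaithfulSMul F S := ⟨fun {x y} h => Subtype.ext (Subtype.ext (Equiv.ext fun z => by
    by_cases hz : z ∈ s
    · exact ((mem_fixingSubgroup_iff G).1 x.2 z hz).trans ((mem_fixingSubgroup_iff G).1 y.2 z hz).symm
    · exact congrArg Subtype.val (h ⟨z, hz⟩)))⟩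
  have og : orderOf g = p := hgc.orderOf.trans hgp
  have hsyl : ∀ x : F, orderOf x = p → ∃ P : Sylow p F, (P : Subgroup F) = zpowers x := fun x hx => by
    obtain ⟨P, hP⟩ := (IsPGroup.of_card (G := zpowers x) (n := 1)
      (by rw [Nat.card_zpowers, hx, pow_one])).exists_le_sylow
    refine ⟨P, (eq_of_le_of_card_ge hP ?_).symm⟩
    rw [Nat.card_zpowers, hx]; exact (card_norm hS P).1.le
  have ms : ∀ x, x ∈ s ↔ g x = x := fun x => by simp [s]
  let g' : F := ⟨⟨g, hg⟩, (mem_fixingSubgroup_iff G).2 fun x hx => (ms x).1 hx⟩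
  have key : ∀ a ∈ s, ∀ b ∈ s, ∃ u ∈ G, (∀ x ∈ s, u x = swap a b x) ∧ u * g * u⁻¹ ∈ zpowers g := by
    intro a ha b hb
    obtain ⟨u, hu⟩ := exists_ext hk g.supportᶜ (by rw [Finset.card_compl, hgp]) (swap a b)
      (Equiv.injective _).injOn
    have hu' : ∀ x ∈ s, (u : Perm α) x = swap a b x := fun x hx => hu x (by simpa [s] using hx)
    have sw : ∀ x ∈ s, swap a b x ∈ s := fun x hx => by
      rw [swap_apply_def]; split_ifs; exacts [hb, ha, hx]
    let h : F := ⟨u * ⟨g, hg⟩ * u⁻¹, (mem_fixingSubgroup_iff G).2 fun x hx => by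
      have : u⁻¹ • x = swap a b x := by
        rw [inv_smul_eq_iff]; exact ((hu' _ (sw x hx)).trans (swap_apply_self _ _ _)).symm
      rw [mul_smul, mul_smul, this, show (⟨g, hg⟩ : G) • swap a b x = _ from (ms _).1 (sw x hx),
        ← this, smul_inv_smul]⟩
    obtain ⟨P, hP⟩ := hsyl g' (by rw [← og, ← orderOf_coe, ← orderOf_coe])
    obtain ⟨Q, hQ⟩ := hsyl h (by
      rw [← og, ← orderOf_coe, ← orderOf_coe]
      exact (MulAut.conj (u : Perm α)).orderOf_eq g)
    obtain ⟨f, hf⟩ := exists_smul_eq F Q P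
    have : f * h * f⁻¹ ∈ zpowers g' := by
      rw [← hP, ← hf]
      exact smul_mem_pointwise_smul h (MulAut.conj f) Q (hQ ▸ mem_zpowers h)
    obtain ⟨n, hn⟩ := this
    refine ⟨f.1 * u, mul_mem f.1.2 u.2, fun x hx => ?_, n, ?_⟩
    · rw [Perm.mul_apply, hu' x hx]
      exact (mem_fixingSubgroup_iff G).1 f.2 _ (sw x hx)
    · have := congrArg (fun y : F => (y.1 : Perm α)) hn
      simpa [g', h, mul_assoc] using this
  obtain ⟨a, b, c, ha, hb, hc, hab, hac, hbc⟩ := (Set.two_lt_ncard_iff (s := s)).1 (by omega)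
  obtain ⟨u, uG, hu, i, hi⟩ := key a ha b hb
  obtain ⟨v, vG, hv, j, hj⟩ := key a ha c hc
  have sw : ∀ a ∈ s, ∀ b ∈ s, ∀ x ∈ s, swap a b x ∈ s := fun a ha b hb x hx => by
    rw [swap_apply_def]; split_ifs; exacts [hb, ha, hx]
  let w := (v * u)⁻¹ * (u * v)
  have wc : w * g = g * w := by
    have e1 : u * v * g * (u * v)⁻¹ = g ^ (i * j) := by
      calc _ = u * (v * g * v⁻¹) * u⁻¹ := by group
        _ = _ := by rw [← show g ^ j = _ from hj, ← conj_zpow, ← show g ^ i = _ from hi, zpow_mul]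
    have e2 : v * u * g * (v * u)⁻¹ = g ^ (i * j) := by
      calc _ = v * (u * g * u⁻¹) * v⁻¹ := by group
        _ = _ := by
          rw [← show g ^ i = _ from hi, ← conj_zpow, ← show g ^ j = _ from hj, mul_comm, zpow_mul]
    calc w * g = (v * u)⁻¹ * (u * v * g * (u * v)⁻¹) * (u * v) := by simp only [w]; group
      _ = (v * u)⁻¹ * (v * u * g * (v * u)⁻¹) * (u * v) := by rw [e1, e2]
      _ = g * w := by simp only [w]; group
  have ws : ∀ x ∈ s, w x = ((swap a b * swap a c) ^ 2) x := fun x hx => by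
    simp only [w, sq, Perm.mul_apply, Perm.inv_eq_iff_eq]
    rw [hv x hx, hu _ (sw a ha c hc x hx), hu _ (sw a ha b hb _ (sw a ha c hc _ (sw a ha b hb _
      (sw a ha c hc _ hx)))), swap_apply_self,
      hv _ (sw a ha c hc _ (sw a ha b hb _ (sw a ha c hc _ hx))), swap_apply_self]
  obtain ⟨z, hz⟩ : g.support.Nonempty := Finset.card_pos.1 (hgp ▸ hp.pos)
  rw [Perm.mem_support] at hz
  have wz : g (w z) ≠ w z := fun e => hz (w.injective (by
    rw [← Perm.mul_apply, wc, Perm.mul_apply, e]))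
  obtain ⟨n, hn⟩ := hgc.exists_zpow_eq hz wz
  have e : (g ^ n)⁻¹ * w = (swap a b * swap a c) ^ 2 := Equiv.ext fun x => by
    by_cases hx : x ∈ s
    · rw [Perm.mul_apply, Perm.inv_eq_iff_eq, ws x hx, Perm.zpow_apply_eq_self_of_apply_eq_self]
      rw [← ms, sq]
      simp only [Perm.mul_apply]
      exact sw a ha b hb _ (sw a ha c hc _ (sw a ha b hb _ (sw a ha c hc _ hx)))
    · obtain ⟨m, rfl⟩ := hgc.exists_zpow_eq hz (fun e => hx ((ms x).2 e))
      have c1 : Commute w (g ^ m) := Commute.zpow_right wc m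
      have n1 : ∀ y ∈ s, (g ^ m) z ≠ y := fun y hy e => hx (e ▸ hy)
      rw [Perm.mul_apply, Perm.inv_eq_iff_eq, ← Perm.mul_apply, c1.eq, Perm.mul_apply, ← hn]
      simp only [sq, Perm.mul_apply, swap_apply_of_ne_of_ne (n1 a ha) (n1 b hb),
        swap_apply_of_ne_of_ne (n1 a ha) (n1 c hc)]
      rw [← Perm.mul_apply, ← Perm.mul_apply (g ^ n), (Commute.zpow_zpow_self g m n).eq]
  exact Perm.alternatingGroup_le_of_isPreprimitive_of_isThreeCycle_mem hG
    (Perm.isThreeCycle_swap_mul_swap_same hab hac hbc).isThreeCycle_sq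
    (by rw [← sq, ← e]; exact mul_mem (inv_mem (zpow_mem hg n)) (mul_mem (inv_mem (mul_mem vG uG)) (mul_mem uG vG)))

theorem exists_arc (g : Perm α) (j : ℕ) (hj : j ≤ g.support.card) :
    ∃ A ⊆ g.support, A.card = j ∧ (A.filter fun x => g x ∉ A).card ≤ 1 := by
  induction j with
  | zero => exact ⟨∅, by simp⟩
  | succ j ih =>
    obtain ⟨A, h1, h2, h3⟩ := ih (by omega)
    rcases (A.filter fun x => g x ∉ A).eq_empty_or_nonempty with h | ⟨a, ha⟩
    · obtain ⟨b, hb, hb'⟩ := Finset.exists_mem_notMem_of_card_lt_card (s := A) (t := g.support)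
        (by omega)
      refine ⟨insert b A, Finset.insert_subset hb h1, by rw [Finset.card_insert_of_notMem hb', h2],
        (Finset.card_le_card (t := {b}) fun x hx => ?_).trans (by simp)⟩
      simp only [Finset.mem_filter, Finset.mem_insert, not_or, Finset.mem_singleton] at hx ⊢
      exact hx.1.resolve_right fun hx' => Finset.filter_eq_empty_iff.1 h hx' hx.2.2
    · have ha' := Finset.mem_filter.1 ha
      refine ⟨insert (g a) A, Finset.insert_subset (Perm.apply_mem_support.2 (h1 ha'.1)) h1,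
        by rw [Finset.card_insert_of_notMem ha'.2, h2],
        (Finset.card_le_card (t := {g a}) fun x hx => ?_).trans (by simp)⟩
      simp only [Finset.mem_filter, Finset.mem_insert, not_or, Finset.mem_singleton] at hx ⊢
      exact hx.1.resolve_right fun hx' => hx.2.1
        (congrArg g (Finset.card_le_one.1 h3 x (Finset.mem_filter.2 ⟨hx', hx.2.2⟩) a ha))

theorem supp_bound {g u : Perm α} {A B : Finset α} (hA : A ⊆ B) (hB : B ⊆ g.support)
    (hu : ∀ x ∈ A, u x = x) (hb : ∀ x ∈ B, u⁻¹ x ∈ g.support) :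
    (g⁻¹ * (u * g * u⁻¹)).support.card + B.card + A.card ≤
      2 * g.support.card + (A.filter fun x => g x ∉ A).card := by
  have h1 : (g⁻¹ * (u * g * u⁻¹)).support ⊆ (g.support ∪ (u * g * u⁻¹).support) \
      A.filter fun x => ¬ g x ∉ A := fun x hx => by
    rw [Finset.mem_sdiff]
    refine ⟨by simpa using Perm.support_mul_le _ _ hx, fun h => ?_⟩
    rw [Finset.mem_filter, not_not] at h
    rw [Perm.mem_support] at hx
    apply hx
    simp only [Perm.mul_apply]
    rw [Perm.inv_eq_iff_eq.2 (hu x h.1).symm, hu _ h.2]; simp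
  have h2 := Finset.card_le_card h1
  rw [Finset.card_sdiff_of_subset ((Finset.filter_subset _ _).trans ((hA.trans hB).trans
    Finset.subset_union_left))] at h2
  have h3 := Finset.card_union_add_card_inter g.support (u * g * u⁻¹).support
  have h4 : B.card ≤ (g.support ∩ (u * g * u⁻¹).support).card := Finset.card_le_card fun x hx => by
    refine Finset.mem_inter.2 ⟨hB hx, ?_⟩
    have := hb x hx
    rw [Perm.mem_support] at this ⊢
    exact fun e => this (Perm.eq_inv_iff_eq.2 e)
  have h5 := Finset.card_filter_add_card_filter_not (s := A) fun x => g x ∉ A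
  have h6 := Finset.card_le_card (show (A.filter fun x => ¬ g x ∉ A) ⊆
    g.support ∪ (u * g * u⁻¹).support from (Finset.filter_subset _ _).trans ((hA.trans hB).trans
    Finset.subset_union_left))
  rw [Perm.card_support_conj] at h3
  omega

theorem small_step (G : Subgroup (Perm α)) {k : ℕ} (hk : 3 ≤ k) (hkn : k ≤ Fintype.card α)
    (hG : IsMultiplyPretransitive G α k) {g : Perm α} (hg : g ∈ G)
    (h4 : 4 ≤ g.support.card) (hs : g.support.card < 2 * k - 2) :
    ∃ h ∈ G, h ≠ 1 ∧ h.support.card < g.support.card := by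
  have hn := Nat.card_eq_fintype_card (α := α)
  by_cases hm : g.support.card = Fintype.card α
  · obtain ⟨a, b, c, -, -, -, hab, hac, hbc⟩ :=
      (Finset.two_lt_card_iff (s := g.support)).1 (by omega)
    obtain ⟨u, h1, h2⟩ := off_of_mt' hG (by omega) (s := {a}) (by simp; omega) b c
      (by simp [hab.symm]) (by simp [hac.symm])
    refine ⟨u, u.2, fun e => hbc ?_, hm ▸ Finset.card_lt_univ_of_notMem (x := a) ?_⟩
    · rw [← h2]; change b = (u : Perm α) b; rw [e]; rfl
    · rw [Perm.notMem_support]; exact h1 a (by simp)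
  obtain ⟨z, hz⟩ := exists_notMem (s := g.support) (lt_of_le_of_ne (Finset.card_le_univ _) hm)
  obtain ⟨A, h1, h2, h3⟩ := exists_arc g (min (k - 1) (g.support.card - 1)) (by omega)
  have ho := off_of_mt' hG (by omega) (s := A) (by omega)
  have fin : ∀ b b', b ∉ A → b' ∉ A → ∃ u ∈ G, (∀ x ∈ A, u x = x) ∧ u b = b' := fun b b' h5 h6 =>
    let ⟨u, h7, h8⟩ := ho b b' h5 h6; ⟨u, u.2, h7, h8⟩
  have outside : ∀ b ∈ g.support, b ∉ A → ∃ h ∈ G, h ≠ 1 ∧ h.support.card + A.card + A.card ≤
      2 * g.support.card + (A.filter fun x => g x ∉ A).card := fun b hb hb' => by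
    obtain ⟨u, uG, h5, h6⟩ := fin b z hb' fun h => hz (h1 h)
    refine ⟨_, mul_mem (inv_mem hg) (mul_mem (mul_mem uG hg) (inv_mem uG)), fun e => ?_,
      supp_bound le_rfl h1 h5 fun x hx => (Perm.inv_eq_iff_eq.2 (h5 x hx).symm).symm ▸ h1 hx⟩
    rw [inv_mul_eq_one, eq_mul_inv_iff_mul_eq] at e
    have := congrArg (fun σ : Perm α => σ b) e
    simp only [Perm.mul_apply, h6, Perm.notMem_support.1 hz] at this
    exact Perm.mem_support.1 hb (u.injective (this.symm.trans h6.symm))
  obtain ⟨b, hb, hb'⟩ := Finset.exists_mem_notMem_of_card_lt_card (s := A) (t := g.support)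
    (by omega)
  rcases (A.filter fun x => g x ∉ A).eq_empty_or_nonempty with h | ⟨a, ha⟩
  · obtain ⟨w, h5, h6, h7⟩ := outside b hb hb'
    rw [h, Finset.card_empty] at h7
    exact ⟨w, h5, h6, by omega⟩
  by_cases hc : g.support.card ≤ k
  · obtain ⟨w, h5, h6, h7⟩ := outside b hb hb'
    exact ⟨w, h5, h6, by omega⟩
  obtain ⟨ha1, ha2⟩ := Finset.mem_filter.1 ha
  obtain ⟨b', h5, h6⟩ := Finset.exists_mem_notMem_of_card_lt_card (s := insert (g a) A)
    (t := g.support) (by rw [Finset.card_insert_of_notMem ha2]; omega)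
  rw [Finset.mem_insert, not_or] at h6
  obtain ⟨u, uG, h7, h8⟩ := fin (g a) b' ha2 h6.2
  have := supp_bound (B := insert b' A) (Finset.subset_insert _ _) (Finset.insert_subset h5 h1) h7
    fun x hx => by
      rcases Finset.mem_insert.1 hx with rfl | hx
      · rw [← h8]; simpa using h1 ha1
      · exact (Perm.inv_eq_iff_eq.2 (h7 x hx).symm).symm ▸ h1 hx
  rw [Finset.card_insert_of_notMem h6.2] at this
  refine ⟨_, mul_mem (inv_mem hg) (mul_mem (mul_mem uG hg) (inv_mem uG)), fun e => ?_, by omega⟩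
  rw [inv_mul_eq_one, eq_mul_inv_iff_mul_eq] at e
  have := congrArg (fun σ : Perm α => σ a) e
  simp only [Perm.mul_apply, h8, h7 a ha1] at this
  exact h6.1 this.symm

theorem alt_le_of_supp (G : Subgroup (Perm α)) (hG : IsPreprimitive G α) {h : Perm α} (hh : h ∈ G)
    (h1 : h ≠ 1) (h3 : h.support.card ≤ 3) : alternatingGroup α ≤ G := by
  have := Perm.two_le_card_support_of_ne_one h1
  by_cases h2 : h.support.card = 2
  · rw [Perm.subgroup_eq_top_of_isPreprimitive_of_isSwap_mem hG h
      (Perm.card_support_eq_two.1 h2) hh]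
    exact le_top
  · exact Perm.alternatingGroup_le_of_isPreprimitive_of_isThreeCycle_mem hG
      (card_support_eq_three_iff.1 (by omega)) hh

theorem small_supp (G : Subgroup (Perm α)) {k : ℕ} (hk : 3 ≤ k) (hkn : k ≤ Fintype.card α)
    (hG : IsMultiplyPretransitive G α k) (m : ℕ) : ∀ g ∈ G, g ≠ 1 → g.support.card = m →
      m < 2 * k - 2 → ∃ h ∈ G, h ≠ 1 ∧ h.support.card ≤ 3 := by
  induction m using Nat.strong_induction_on with
  | _ m ih =>
    intro g hg g1 e hm
    by_cases h : m ≤ 3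
    · exact ⟨g, hg, g1, e ▸ h⟩
    obtain ⟨w, h1, h2, h3⟩ := small_step G hk hkn hG hg (by omega) (by omega)
    exact ih _ (by omega) w h1 h2 rfl (by omega)

end PM
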