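import Cfsg.Agent.PM.E
import Cfsg.Prelude.Def_Perm

namespace PM
open MulAction Function Subgroup Cfsg

variable {G : Type*} [Group G] {K : Type*} [Field K] {Ω Ω' : Type*} [MulAction G Ω]
  [MulAction G Ω']

@[simp] theorem permRep_apply (g : G) (f : Ω → K) (x : Ω) : permRep K G Ω g f x = f (g⁻¹ • x) := rfl

theorem mem_const {f : Ω → K} : f ∈ (permConstants K G Ω).toSubmodule ↔ ∃ c, ∀ x, f x = c := by
  change f ∈ Submodule.span K _ ↔ _
  rw [Submodule.mem_span_singleton]
  exact ⟨fun ⟨c, e⟩ => ⟨c, fun x => by simp [← e]⟩, fun ⟨c, e⟩ => ⟨c, by ext x; simp [e]⟩⟩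

theorem mem_sz [Fintype Ω] {f : Ω → K} : f ∈ (permSumZero K G Ω).toSubmodule ↔ ∑ x, f x = 0 :=
  Iff.rfl

/-- linear map with a given kernel -/
def km [Fintype Ω] (k : Ω' → Ω → K) : (Ω → K) →ₗ[K] (Ω' → K) where
  toFun f y := ∑ x, k y x * f x
  map_add' f g := by ext y; simp [mul_add, Finset.sum_add_distrib]
  map_smul' c f := by ext y; simp [Finset.mul_sum, mul_left_comm]

theorem km_apply [Fintype Ω] (k : Ω' → Ω → K) (f : Ω → K) (y : Ω') :
    km k f y = ∑ x, k y x * f x := rfl

theorem km_single [Fintype Ω] [DecidableEq Ω] (k : Ω' → Ω → K) (x : Ω) (y : Ω') :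
    km k (Pi.single x 1) y = k y x := by
  simp [km_apply, Pi.single_apply]

theorem km_rep [Fintype Ω] {k : Ω' → Ω → K} (hk : ∀ (g : G) y x, k (g • y) (g • x) = k y x)
    (g : G) (f : Ω → K) : km k (permRep K G Ω g f) = permRep K G Ω' g (km k f) := by
  ext y
  simp only [km_apply, permRep_apply]
  exact Fintype.sum_equiv (MulAction.toPerm g⁻¹) _ _ fun x => by
    rw [MulAction.toPerm_apply, hk]

/-- image of a subrepresentation -/
def imRep {φ : (Ω → K) →ₗ[K] (Ω' → K)}
    (h : ∀ (g : G) f, φ (permRep K G Ω g f) = permRep K G Ω' g (φ f))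
    (W : Subrepresentation (permRep K G Ω)) : Subrepresentation (permRep K G Ω') where
  toSubmodule := W.toSubmodule.map φ
  apply_mem_toSubmodule g := by
    rintro _ ⟨v, hv, rfl⟩
    exact ⟨_, W.apply_mem_toSubmodule g hv, h g v⟩

def kerRep {φ : (Ω → K) →ₗ[K] (Ω' → K)}
    (h : ∀ (g : G) f, φ (permRep K G Ω g f) = permRep K G Ω' g (φ f)) :
    Subrepresentation (permRep K G Ω) where
  toSubmodule := LinearMap.ker φ
  apply_mem_toSubmodule g v hv := by
    rw [LinearMap.mem_ker] at hv ⊢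
    rw [h, hv, map_zero]

def perp [Fintype Ω] (W : Subrepresentation (permRep K G Ω)) :
    Subrepresentation (permRep K G Ω) where
  toSubmodule :=
    { carrier := {w | ∀ u ∈ W.toSubmodule, ∑ x, w x * u x = 0}
      add_mem' := fun h1 h2 u hu => by
        simp [add_mul, Finset.sum_add_distrib, h1 u hu, h2 u hu]
      zero_mem' := fun u hu => by simp
      smul_mem' := fun c w h u hu => by
        simp [mul_assoc, ← Finset.mul_sum, h u hu] }
  apply_mem_toSubmodule g w hw u hu := by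
    rw [← hw _ (W.apply_mem_toSubmodule g⁻¹ hu)]
    exact Fintype.sum_equiv (MulAction.toPerm g⁻¹) _ _ fun x => by simp

theorem perp_ne [Fintype Ω] {W : Subrepresentation (permRep K G Ω)} (h : W.toSubmodule ≠ ⊤) :
    (perp W).toSubmodule ≠ ⊥ := by
  classical
  obtain ⟨l, h1, h2⟩ := W.toSubmodule.exists_le_ker_of_lt_top h.lt_top
  have e : ∀ u : Ω → K, l u = ∑ x, l (Pi.single x 1) * u x := fun u => by
    conv_lhs => rw [pi_eq_sum_univ' u, map_sum]
    simp [mul_comm]
  intro h3
  have : (fun x => l (Pi.single x 1)) ∈ (perp W).toSubmodule := fun u hu => (e u).symm.trans (h2 hu)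
  rw [h3, Submodule.mem_bot] at this
  exact h1 (LinearMap.ext fun u => by
    rw [e]; exact Finset.sum_eq_zero fun x _ => by rw [congrFun this x]; simp)

theorem exists_fixed_vec [Finite G] {p : ℕ} [hp : Fact p.Prime] [CharP K p] {P : Subgroup G}
    (hP : IsPGroup p P) (W : Subrepresentation (permRep K G Ω)) (hW : W.toSubmodule ≠ ⊥) :
    ∃ v ∈ W.toSubmodule, v ≠ 0 ∧ ∀ g ∈ P, ∀ x, v (g • x) = v x := by
  classical
  obtain ⟨v, hv, v0⟩ := W.toSubmodule.exists_mem_ne_zero_of_ne_bot hW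
  haveI := Fintype.ofFinite G
  letI := ZMod.algebra K p
  letI : MulAction G (Ω → K) := arrowAction
  let φ : (G → ZMod p) →+ (Ω → K) :=
    { toFun := fun c => ∑ g, algebraMap (ZMod p) K (c g) • permRep K G Ω g v
      map_zero' := by simp
      map_add' := fun a b => by simp [add_smul, Finset.sum_add_distrib] }
  haveI : Finite φ.range := Finite.of_surjective _ φ.rangeRestrict_surjective
  let s := (Set.toFinite (φ.range : Set (Ω → K))).toFinset
  have hs : ∀ w, w ∈ s ↔ w ∈ φ.range := fun w => Set.Finite.mem_toFinset _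
  have h1 := card_modEq_fix hp.out hP s fun g _ w hw => by
    obtain ⟨c, rfl⟩ := (hs w).1 hw
    refine (hs _).2 ⟨fun u => c (g⁻¹ * u), ?_⟩
    ext x
    change (∑ u, _ • permRep K G Ω u v) x = (∑ u, _ • permRep K G Ω u v) (g⁻¹ • x)
    simp only [Finset.sum_apply, Pi.smul_apply, permRep_apply]
    exact Fintype.sum_equiv (Equiv.mulLeft g⁻¹) _ _ fun u => by simp [mul_smul]
  have hv' : v ∈ φ.range := ⟨Pi.single 1 1, by
    change ∑ g, _ = v
    rw [Finset.sum_eq_single 1 (fun b _ hb => by simp [hb]) (by simp)]; simp⟩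
  have h2 : p ∣ s.card := by
    have e : s.card = Nat.card φ.range := by
      exact (Set.ncard_eq_toFinset_card _ _).symm
    have h3 : Nat.card φ.range ∣ p ^ Fintype.card G := by
      have := AddSubgroup.card_range_dvd φ
      simpa using this
    obtain ⟨j, -, hj⟩ := (Nat.dvd_prime_pow hp.out).1 h3
    rcases j with _ | j
    · have := (Nat.card_eq_one_iff_unique.1 hj).1
      exact absurd (congrArg Subtype.val (this.elim (⟨v, hv'⟩ : φ.range) 0)) v0
    · rw [e, hj]; exact dvd_pow_self _ (by omega)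
  have h4 := ((Nat.modEq_zero_iff_dvd.2 h2).symm.trans h1).symm
  rw [Nat.modEq_zero_iff_dvd] at h4
  have h0 : (0 : Ω → K) ∈ s.filter fun x => ∀ g ∈ P, g • x = x :=
    Finset.mem_filter.2 ⟨(hs _).2 (zero_mem _), fun g _ => rfl⟩
  have h5 := Nat.le_of_dvd (Finset.card_pos.2 ⟨_, h0⟩) h4
  obtain ⟨w, hw, w0⟩ := Finset.exists_mem_ne (hp.out.one_lt.trans_le h5) 0
  obtain ⟨h6, h7⟩ := Finset.mem_filter.1 hw
  refine ⟨w, ?_, w0, fun g hg x => ?_⟩
  · obtain ⟨c, rfl⟩ := (hs w).1 h6
    exact Submodule.sum_mem _ fun g _ => Submodule.smul_mem _ _ (W.apply_mem_toSubmodule g hv)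
  · have := congrFun (h7 g⁻¹ (inv_mem hg)) x
    change w (g⁻¹⁻¹ • x) = _ at this
    rwa [inv_inv] at this

theorem const_le [Finite G] [Finite Ω] [IsPretransitive G Ω] {p f : ℕ} [Fact p.Prime] [CharP K p]
    (h : Nat.card Ω = p ^ f) (W : Subrepresentation (permRep K G Ω)) (hW : W.toSubmodule ≠ ⊥) :
    (permConstants K G Ω).toSubmodule ≤ W.toSubmodule := by
  obtain ⟨P⟩ : Nonempty (Sylow p G) := inferInstance
  obtain ⟨v, hv, v0, e⟩ := exists_fixed_vec P.2 W hW
  obtain ⟨a, ha⟩ := Function.ne_iff.1 v0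
  intro u hu
  obtain ⟨c, hc⟩ := mem_const.1 hu
  have : u = (c / v a) • v := by
    ext x
    obtain ⟨g, hg, rfl⟩ := tr_iff.1 (sylow_tr h P) a x
    rw [hc, Pi.smul_apply, e g hg, smul_eq_mul, div_mul_cancel₀ _ ha]
  exact this ▸ Submodule.smul_mem _ _ hv

theorem le_sz [Finite G] [Fintype Ω] [IsPretransitive G Ω] {p f : ℕ} [Fact p.Prime] [CharP K p]
    (h : Nat.card Ω = p ^ f) (W : Subrepresentation (permRep K G Ω)) (hW : W.toSubmodule ≠ ⊤) :
    W.toSubmodule ≤ (permSumZero K G Ω).toSubmodule := fun u hu => by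
  have := const_le h _ (perp_ne hW) (mem_const.2 ⟨1, fun _ => rfl⟩ :
    (fun _ => 1) ∈ (permConstants K G Ω).toSubmodule) u hu
  simpa [mem_sz] using this

theorem single_sub_mem [Fintype Ω] [DecidableEq Ω] (x y : Ω) :
    (Pi.single x 1 - Pi.single y 1 : Ω → K) ∈ (permSumZero K G Ω).toSubmodule := by
  simp [mem_sz, Finset.sum_sub_distrib]

theorem rep_sub_mem [Fintype Ω] (g : G) (v : Ω → K) :
    permRep K G Ω g v - v ∈ (permSumZero K G Ω).toSubmodule := by
  simp only [mem_sz, Pi.sub_apply, Finset.sum_sub_distrib, permRep_apply, sub_eq_zero]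
  exact Fintype.sum_equiv (MulAction.toPerm g⁻¹) _ _ fun x => rfl

theorem two_tr_of_heart [Finite G] [Fintype Ω] [IsPretransitive G Ω] {p f : ℕ} [Fact p.Prime]
    [CharP K p] (hcard : Nat.card Ω = p ^ f)
    (h : ∀ W W' : Subrepresentation (permRep K G Ω),
      (permConstants K G Ω).toSubmodule ≤ W.toSubmodule → W.toSubmodule < W'.toSubmodule →
      W'.toSubmodule ≤ (permSumZero K G Ω).toSubmodule →
      ∃ g : G, ∃ v ∈ W'.toSubmodule, permRep K G Ω g v - v ∉ W.toSubmodule) :
    IsMultiplyPretransitive G Ω 2 := by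
  classical
  refine mt_succ (is_one_pretransitive_iff.2 inferInstance) fun s hs b c hb hc => ?_
  obtain ⟨a, rfl⟩ := Finset.card_eq_one.1 hs
  simp only [Finset.mem_singleton, forall_eq] at hb hc ⊢
  by_contra hn
  let R : Ω → Ω → Prop := fun y x => ∃ g : G, g • a = y ∧ g • b = x
  have hR : ∀ (g : G) y x, R (g • y) (g • x) ↔ R y x := fun g y x =>
    ⟨fun ⟨u, h1, h2⟩ => ⟨g⁻¹ * u, by simp [mul_smul, h1], by simp [mul_smul, h2]⟩,
      fun ⟨u, h1, h2⟩ => ⟨g * u, by simp [mul_smul, h1], by simp [mul_smul, h2]⟩⟩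
  let m : K := ∑ y, if R y a then 1 else 0
  let k : Ω → Ω → K := fun y x => (if R y x then 1 else 0) - if y = x then m else 0
  have hk : ∀ (g : G) y x, k (g • y) (g • x) = k y x := fun g y x => by simp [k, hR]
  have hφ := km_rep (K := K) hk
  have hsum : ∀ x, ∑ y, k y x = 0 := fun x => by
    obtain ⟨g, rfl⟩ := exists_smul_eq G a x
    rw [← Fintype.sum_equiv (MulAction.toPerm g) (fun y => k y a) _ fun y => (hk g y a).symm]
    simp [k, m, Finset.sum_sub_distrib]
  have kb : k a b = 1 := by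
    have : R a b := ⟨1, by simp, by simp⟩
    simp [k, this, Ne.symm hb]
  have kc : k a c = 0 := by
    have : ¬ R a c := hn
    simp [k, this, Ne.symm hc]
  obtain ⟨g, v, ⟨u, -, rfl⟩, hv⟩ := h (imRep hφ (permSumZero K G Ω)) (imRep hφ ⊤)
    (const_le hcard _ fun e => by
      have : km k (Pi.single b 1 - Pi.single c 1) ∈ (imRep hφ (permSumZero K G Ω)).toSubmodule :=
        ⟨_, single_sub_mem b c, rfl⟩
      rw [e, Submodule.mem_bot] at this
      have := congrFun this a
      rw [map_sub, Pi.sub_apply, km_single, km_single, kb, kc] at this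
      simp at this)
    (lt_of_le_of_ne (Submodule.map_mono le_top) fun e => by
      have : km k (Pi.single a 1) ∈ (imRep hφ (permSumZero K G Ω)).toSubmodule :=
        e ▸ ⟨_, trivial, rfl⟩
      obtain ⟨w, hw, e2⟩ := this
      have h3 := le_sz hcard (kerRep hφ) (fun e3 => by
        have : Pi.single b 1 ∈ (kerRep hφ).toSubmodule := e3 ▸ Submodule.mem_top
        have := congrFun (LinearMap.mem_ker.1 this) a
        rw [km_single, kb] at this
        simp at this) (show Pi.single a 1 - w ∈ (kerRep hφ).toSubmodule by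
          change km k _ = 0
          rw [map_sub, e2, sub_self])
      rw [mem_sz] at h3
      have hw' : ∑ x, w x = 0 := hw
      simp [Finset.sum_sub_distrib, hw'] at h3)
    (by
      rintro _ ⟨v, -, rfl⟩
      rw [mem_sz]
      simp only [km_apply]
      rw [Finset.sum_comm]
      simp [← Finset.sum_mul, hsum])
  exact hv ⟨_, rep_sub_mem g u, by rw [map_sub, hφ]⟩

end PM
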