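import Cfsg.Agent.PM.Mod

/-! Transitive groups of prime degree. -/
namespace PM
open MulAction Function Subgroup Cfsg Polynomial

section
variable {K : Type*} [Field K] {p : ℕ} [hp : Fact p.Prime] [CharP K p]

theorem degLT_zero (U : Submodule K K[X]) : degreeLT K 0 ≤ U := fun P hP => by
  have : P = 0 := by simpa using mem_degreeLT.1 hP
  simp [this]

theorem degLT_le {U : Submodule K K[X]} (hU : ∀ P ∈ U, taylor (-1) P ∈ U) (d : ℕ) (hd : d < p) :
    ∀ P ∈ U, P ≠ 0 → P.natDegree = d → degreeLT K (d + 1) ≤ U := by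
  have step : ∀ d, degreeLT K d ≤ U → ∀ P ∈ U, P ≠ 0 → P.natDegree = d → degreeLT K (d + 1) ≤ U := by
    intro d h P hP P0 e R hR
    have h1 : P.coeff d ≠ 0 := e ▸ leadingCoeff_ne_zero.2 P0
    have : R - (R.coeff d / P.coeff d) • P ∈ U := h (by
      rw [mem_degreeLT, degree_lt_iff_coeff_zero] at hR ⊢
      intro m hm
      rcases hm.eq_or_lt with rfl | hm
      · simp [h1]
      · simp [hR m hm, coeff_eq_zero_of_natDegree_lt (e ▸ hm : P.natDegree < m)])
    simpa using U.add_mem this (U.smul_mem (R.coeff d / P.coeff d) hP)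
  induction d with
  | zero => exact step 0 (degLT_zero U)
  | succ d ih =>
    intro P hP P0 e
    have h1 : P.coeff (d + 1) ≠ 0 := e ▸ leadingCoeff_ne_zero.2 P0
    have h2 : (P - taylor (-1) P).coeff d ≠ 0 := by
      rw [coeff_sub, taylor_coeff, eval_eq_sum_range' (n := 2) (by
        have := natDegree_hasseDeriv_le P d; omega)]
      simp only [Finset.sum_range_succ, Finset.sum_range_zero, hasseDeriv_coeff]
      have h3 : ((d + 1 : ℕ) : K) ≠ 0 := by
        rw [Ne, CharP.cast_eq_zero_iff K p]; exact Nat.not_dvd_of_pos_of_lt (by omega) hd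
      simpa [add_comm 1 d] using ⟨by exact_mod_cast h3, h1⟩
    refine step _ (ih (by omega) _ (U.sub_mem hP (hU P hP)) (fun e => h2 (by simp [e])) ?_) P hP P0 e
    refine le_antisymm ?_ (le_natDegree_of_ne_zero h2)
    rw [natDegree_le_iff_coeff_eq_zero]
    intro m hm
    rcases (show d + 1 ≤ m from hm).eq_or_lt with rfl | hm
    · rw [coeff_sub, ← e, coeff_taylor_natDegree]; simp
    · rw [coeff_sub, coeff_eq_zero_of_natDegree_lt (e ▸ hm), coeff_eq_zero_of_natDegree_lt
        (by rw [natDegree_taylor, e]; exact hm), sub_self]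

/-- evaluation on the prime field -/
noncomputable def ev (K : Type*) [Field K] (p : ℕ) : K[X] →ₗ[K] (ZMod p → K) :=
  LinearMap.pi fun j => leval (ZMod.cast j : K)

theorem ev_apply (P : K[X]) (j : ZMod p) : ev K p P j = P.eval (ZMod.cast j : K) := rfl

theorem cast_inj : Injective (fun j : ZMod p => (ZMod.cast j : K)) :=
  (ZMod.castHom (dvd_refl p) K).injective

theorem ev_inj {P : K[X]} (h : P ∈ degreeLT K p) (e : ev K p P = 0) : P = 0 :=
  eq_zero_of_degree_lt_of_eval_index_eq_zero Finset.univ (cast_inj (p := p)).injOn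
    (by simpa using mem_degreeLT.1 h) fun i _ => congrFun e i

theorem finrank_ev {r : ℕ} (h : r ≤ p) : Module.finrank K ((degreeLT K r).map (ev K p)) = r := by
  rw [← LinearMap.range_domRestrict, LinearMap.finrank_range_of_inj, (degreeLTEquiv K r).finrank_eq]
  · simp
  · exact (injective_iff_map_eq_zero _).2 fun P e => Subtype.ext (ev_inj (degreeLT_mono h P.2) e)

theorem ev_surj (f : ZMod p → K) : ∃ P ∈ degreeLT K p, ev K p P = f := by
  have : (degreeLT K p).map (ev K p) = ⊤ :=
    Submodule.eq_top_of_finrank_eq (by rw [finrank_ev le_rfl]; simp)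
  exact this.ge Submodule.mem_top

theorem inv_sub (W : Submodule K (ZMod p → K)) (hW : ∀ f ∈ W, (fun j => f (j - 1)) ∈ W) :
    ∃ r ≤ p, W = (degreeLT K r).map (ev K p) := by
  classical
  let U := degreeLT K p ⊓ W.comap (ev K p)
  have hU : ∀ P ∈ U, taylor (-1) P ∈ U := fun P hP => by
    refine ⟨mem_degreeLT.2 (by rw [degree_taylor]; exact mem_degreeLT.1 hP.1), ?_⟩
    have := hW _ hP.2
    change ev K p _ ∈ W
    convert this using 2 with j
    rw [ev_apply, ev_apply, taylor_eval, ZMod.cast_sub (dvd_refl p), ZMod.cast_one (dvd_refl p),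
      sub_eq_add_neg]
  have h0 : degreeLT K 0 ≤ U := degLT_zero U
  let r := Nat.findGreatest (fun r => degreeLT K r ≤ U) p
  have hr : degreeLT K r ≤ U := Nat.findGreatest_spec (P := fun r => degreeLT K r ≤ U) (Nat.zero_le _) h0
  refine ⟨r, Nat.findGreatest_le p, le_antisymm (fun f hf => ?_) ?_⟩
  · obtain ⟨P, hP, rfl⟩ := ev_surj f
    refine ⟨P, ?_, rfl⟩
    by_cases P0 : P = 0
    · simp [P0]
    have h1 : P.natDegree < p := (natDegree_lt_iff_degree_lt P0).2 (mem_degreeLT.1 hP)
    have := Nat.le_findGreatest (P := fun r => degreeLT K r ≤ U) h1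
      (degLT_le hU _ h1 P ⟨hP, hf⟩ P0 rfl)
    exact mem_degreeLT.2 ((natDegree_lt_iff_degree_lt P0).1 this)
  · rintro _ ⟨P, hP, rfl⟩
    exact (hr hP).2

theorem mob {r : ℕ} {π : ZMod p → ZMod p} (hπ : Injective π)
    (h : ∀ f ∈ (degreeLT K r).map (ev K p), f ∘ π ∈ (degreeLT K r).map (ev K p))
    (A : Finset (ZMod p)) (hA : A.card + 2 = r) : ∃ a b c d : K, ∀ x, x ∉ A →
      a * ZMod.cast x + b ≠ 0 ∧ ZMod.cast (π x) * (a * ZMod.cast x + b) = c * ZMod.cast x + d := by
  let F : K[X] := ∏ a ∈ A, (X - C (ZMod.cast (π a) : K))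
  let B : K[X] := ∏ a ∈ A, (X - C (ZMod.cast a : K))
  have hF : F.natDegree = A.card := by simp [F, natDegree_prod_of_monic, monic_X_sub_C]
  have hB : B.natDegree = A.card := by simp [B, natDegree_prod_of_monic, monic_X_sub_C]
  have B0 : B ≠ 0 := (monic_prod_of_monic _ _ fun _ _ => monic_X_sub_C _).ne_zero
  have key : ∀ Q : K[X], Q.natDegree ≤ 1 → ∃ a b : K, ∀ x : ZMod p,
      (Q * F).eval (ZMod.cast (π x) : K) = B.eval (ZMod.cast x : K) * (a * ZMod.cast x + b) := by
    intro Q hQ
    obtain ⟨P, hP, e⟩ := h _ ⟨Q * F, mem_degreeLT.2 (lt_of_le_of_lt degree_le_natDegree (by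
      exact_mod_cast lt_of_le_of_lt natDegree_mul_le (by omega))), rfl⟩
    have e' : ∀ x, P.eval (ZMod.cast x : K) = (Q * F).eval (ZMod.cast (π x) : K) := congrFun e
    obtain ⟨L, rfl⟩ : B ∣ P := Finset.prod_dvd_of_coprime
      (fun a _ b _ hab => isCoprime_X_sub_C_of_isUnit_sub
        (sub_ne_zero.2 fun e => hab (cast_inj e)).isUnit) fun a ha => by
      rw [dvd_iff_isRoot, IsRoot, e', eval_mul, eval_prod, Finset.prod_eq_zero ha (by simp), mul_zero]
    have hL : L.natDegree ≤ 1 := by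
      by_cases L0 : L = 0
      · simp [L0]
      have := (natDegree_lt_iff_degree_lt (mul_ne_zero B0 L0)).2 (mem_degreeLT.1 hP)
      rw [natDegree_mul B0 L0] at this
      omega
    refine ⟨L.coeff 1, L.coeff 0, fun x => ?_⟩
    rw [← e', eval_mul]
    conv_lhs => rw [eq_X_add_C_of_natDegree_le_one hL]
    simp
  obtain ⟨a, b, h1⟩ := key 1 (by simp)
  obtain ⟨c, d, h2⟩ := key X (by simp)
  refine ⟨a, b, c, d, fun x hx => ?_⟩
  have h3 : F.eval (ZMod.cast (π x) : K) ≠ 0 := by
    rw [eval_prod, Finset.prod_ne_zero_iff]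
    intro y hy e
    simp only [eval_sub, eval_X, eval_C, sub_eq_zero] at e
    exact hx (hπ (cast_inj e) ▸ hy)
  have h4 := h1 x
  have h5 := h2 x
  rw [one_mul] at h4
  rw [eval_mul, eval_X, h4] at h5
  rw [h4, mul_ne_zero_iff] at h3
  exact ⟨h3.2, mul_left_cancel₀ h3.1 (by rw [← h5]; ring)⟩

theorem affine_of_inv {r : ℕ} (h2 : 2 ≤ r) (hr : r + 2 ≤ p) {π : ZMod p → ZMod p}
    (hπ : Injective π)
    (h : ∀ f ∈ (degreeLT K r).map (ev K p), f ∘ π ∈ (degreeLT K r).map (ev K p)) :
    ∃ a b : ZMod p, ∀ x, π x = a * x + b := by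
  have cr : ∀ x, (π x - π 0) * (π 1 - π 2) * (x - 2) = -((π x - π 2) * (π 1 - π 0) * x) := by
    intro x
    obtain ⟨A, hA, hc⟩ := Finset.exists_subset_card_eq (s := ({0, 1, 2, x} : Finset (ZMod p))ᶜ)
      (n := r - 2) (by
        have := Finset.card_le_four (a := (0 : ZMod p)) (b := 1) (c := 2) (d := x)
        rw [Finset.card_compl, ZMod.card]; omega)
    obtain ⟨a, b, c, d, e⟩ := mob hπ h A (by omega)
    have hm : ∀ y ∈ ({0, 1, 2, x} : Finset (ZMod p)), y ∉ A := fun y hy h =>
      Finset.mem_compl.1 (hA h) hy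
    obtain ⟨n0, e0⟩ := e 0 (hm _ (by simp))
    obtain ⟨n1, e1⟩ := e 1 (hm _ (by simp))
    obtain ⟨n2, e2⟩ := e 2 (hm _ (by simp))
    obtain ⟨n3, e3⟩ := e x (hm _ (by simp))
    let φ := ZMod.castHom (dvd_refl p) K
    have hφ : ∀ y : ZMod p, (ZMod.cast y : K) = φ y := fun _ => rfl
    simp only [hφ, map_zero, map_one, map_ofNat] at n0 n1 n2 n3 e0 e1 e2 e3
    apply φ.injective
    simp only [map_mul, map_sub, map_neg, map_ofNat]
    have D : ∀ {x y u v : K}, u * (a * x + b) = c * x + d → v * (a * y + b) = c * y + d →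
        (u - v) * (a * x + b) * (a * y + b) = (c * b - a * d) * (x - y) := fun {x y u v} h1 h2 => by
      linear_combination (a * y + b) * h1 - (a * x + b) * h2
    apply mul_left_cancel₀ (mul_ne_zero (mul_ne_zero n0 n1) (mul_ne_zero n2 n3))
    linear_combination (φ x - 2) * ((φ (π 1) - φ (π 2)) * (a * 1 + b) * (a * 2 + b)) * D e3 e0 +
      (φ x - 2) * ((c * b - a * d) * (φ x - 0)) * D e1 e2 +
      φ x * ((φ (π 1) - φ (π 0)) * (a * 1 + b) * (a * 0 + b)) * D e3 e2 +
      φ x * ((c * b - a * d) * (φ x - 2)) * D e1 e0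
  have t0 : (2 : ZMod p) ≠ 0 := by
    intro e
    have := (ZMod.natCast_eq_zero_iff 2 p).1 (by exact_mod_cast e)
    have := Nat.le_of_dvd (by norm_num) this
    omega
  have t1 : (1 : ZMod p) ≠ 2 := fun e => one_ne_zero (α := ZMod p) (by linear_combination -e)
  have n12 : π 1 - π 2 ≠ 0 := sub_ne_zero.2 (hπ.ne t1)
  by_cases hα : 2 * π 1 - π 2 - π 0 = 0
  · refine ⟨π 1 - π 0, π 0, fun x => ?_⟩
    apply mul_left_cancel₀ (mul_ne_zero t0 n12)
    have e : π 2 = 2 * π 1 - π 0 := by linear_combination -hα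
    have := cr x
    rw [e] at this ⊢
    linear_combination (-1) * this
  · exfalso
    set α := 2 * π 1 - π 2 - π 0
    set x0 := 2 * (π 1 - π 2) / α
    have hx0 : α * x0 = 2 * (π 1 - π 2) := mul_div_cancel₀ _ hα
    have k : ∀ x, x ≠ x0 → α * π x = π 0 * (π 1 - π 2) + π 2 * (π 1 - π 0) := fun x hx => by
      apply mul_left_cancel₀ (sub_ne_zero.2 hx)
      linear_combination cr x - cr x0 + (π x0 - π x) * hx0
    have := hπ (mul_left_cancel₀ hα ((k (x0 + 1) (by simp)).trans (k (x0 + 2) (by simpa)).symm))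
    exact t1 (add_left_cancel this)
end

variable {G α : Type*} [Group G] [MulAction G α] {p : ℕ} [hp : Fact p.Prime]

theorem coord_of {c : G} (hc : orderOf c = p) [Finite α] (h : Nat.card α = p) {a : α}
    (ha : c • a ≠ a) : ∃ e : ZMod p ≃ α, ∀ j, c • e j = e (j + 1) := by
  have hi : Injective fun j : ZMod p => c ^ j.val • a := by
    have key : ∀ i j : ℕ, i < j → j < p → c ^ i • a ≠ c ^ j • a := fun i j h1 h2 e => by
      obtain ⟨k, rfl⟩ := Nat.exists_eq_add_of_lt h1
      rw [add_assoc, pow_add, mul_smul, smul_left_cancel_iff] at e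
      have h3 : c ^ (k + 1) ∈ stabilizer G a := e.symm
      have h4 : c ∈ zpowers (c ^ (k + 1)) := mem_zpowers_pow_iff.2 (by
        rw [hc]; exact ((Nat.coprime_of_lt_prime (by omega) (by omega) hp.out)).symm)
      exact ha ((zpowers_le.2 h3) h4)
    intro i j e
    rcases lt_trichotomy i.val j.val with h1 | h1 | h1
    · exact absurd e (key _ _ h1 (ZMod.val_lt j))
    · exact ZMod.val_injective p h1
    · exact absurd e.symm (key _ _ h1 (ZMod.val_lt i))
  refine ⟨Equiv.ofBijective _ (hi.bijective_of_nat_card_le (by simp [h])), fun j => ?_⟩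
  simp only [Equiv.ofBijective_apply]
  rw [← mul_smul, ← pow_succ', ZMod.val_add, ZMod.val_one]
  have := pow_mod_orderOf c (j.val + 1)
  rw [hc] at this
  rw [this]

theorem exists_coord [Finite G] [Finite α] [FaithfulSMul G α] [IsPretransitive G α]
    (h : Nat.card α = p) : ∃ (c : G) (e : ZMod p ≃ α), orderOf c = p ∧ ∀ j, c • e j = e (j + 1) := by
  haveI : Nonempty α := (Nat.card_pos_iff.1 (h ▸ hp.out.pos)).1
  obtain ⟨a⟩ := ‹Nonempty α›
  obtain ⟨c, hc⟩ := exists_prime_orderOf_dvd_card' (G := G) p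
    (by rw [← card_mul_stab (G := G) a, h]; exact dvd_mul_right _ _)
  obtain ⟨b, hb⟩ := exists_move (α := α) (g := c) (by
    rintro rfl; rw [orderOf_one] at hc; exact hp.out.one_lt.ne hc)
  obtain ⟨e, he⟩ := coord_of hc h hb
  exact ⟨c, e, hc, he⟩

theorem solv_of_affine [FaithfulSMul G α] (e : ZMod p ≃ α)
    (h : ∀ g : G, ∃ a b, ∀ x, g • e x = e (a * x + b)) : Group.IsSolvable G := by
  choose a b h using h
  have u : ∀ (g : G) a' b', (∀ x, g • e x = e (a' * x + b')) → a g = a' := fun g a' b' h' => by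
    have h0 := e.injective ((h g 0).symm.trans (h' 0))
    have h1 := e.injective ((h g 1).symm.trans (h' 1))
    linear_combination h1 - h0
  let φ : G →* ZMod p :=
    { toFun := a
      map_one' := u 1 1 0 fun x => by simp
      map_mul' := fun x y => u _ _ (a x * b y + b x) fun z => by
        rw [mul_smul, h, h]; congr 1; ring }
  haveI : Group.IsSolvable φ.toHomUnits.ker := Group.isSolvable_of_comm fun x y => by
    have hx : a x = 1 := congrArg Units.val x.2
    have hy : a y = 1 := congrArg Units.val y.2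
    refine Subtype.ext (eq_of_smul_eq_smul (α := α) fun z => ?_)
    obtain ⟨z, rfl⟩ := e.surjective z
    rw [Subgroup.coe_mul, Subgroup.coe_mul, mul_smul, mul_smul, h, h, h, h, hx, hy]
    congr 1; ring
  exact Group.isSolvable_of_ker_le_range φ.toHomUnits.ker.subtype φ.toHomUnits (by simp)

theorem finrank_sz {K : Type*} [Field K] [Fintype α] [Nonempty α] :
    Module.finrank K (permSumZero K G α).toSubmodule + 1 = Fintype.card α := by
  classical
  let l : (α → K) →ₗ[K] K := ∑ x, LinearMap.proj x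
  have h1 : (permSumZero K G α).toSubmodule = LinearMap.ker l := by
    ext f; simp [mem_sz, l]
  have h2 : LinearMap.range l = ⊤ := by
    rw [eq_top_iff]
    intro c _
    obtain ⟨a⟩ := ‹Nonempty α›
    exact ⟨Pi.single a c, by simp [l]⟩
  have := l.finrank_range_add_finrank_ker
  rw [h2, ← h1] at this
  simpa [add_comm] using this

theorem heart_irr [Finite G] [Fintype α] [FaithfulSMul G α] [IsPretransitive G α]
    (h : Nat.card α = p) (hG : ¬ Group.IsSolvable G) {K : Type*} [Field K] [CharP K p]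
    (W : Subrepresentation (permRep K G α))
    (h₁ : (permConstants K G α).toSubmodule ≤ W.toSubmodule)
    (h₂ : W.toSubmodule ≤ (permSumZero K G α).toSubmodule) :
    W = permConstants K G α ∨ W = permSumZero K G α := by
  obtain ⟨c, e, -, he⟩ := exists_coord (G := G) h
  haveI : Nonempty α := ⟨e 0⟩
  let L := LinearEquiv.funCongrLeft K K e
  have hL : ∀ f j, L f j = f (e j) := fun _ _ => rfl
  obtain ⟨r, hr, hW⟩ := inv_sub (W.toSubmodule.map L.toLinearMap) (by
    rintro _ ⟨f, hf, rfl⟩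
    refine ⟨_, W.apply_mem_toSubmodule c hf, funext fun j => ?_⟩
    change f (c⁻¹ • e j) = f (e (j - 1))
    rw [inv_smul_eq_iff.2 (by rw [he, sub_add_cancel])])
  have h3 : Module.finrank K W.toSubmodule = r := by
    rw [← LinearEquiv.finrank_map_eq L, hW, finrank_ev hr]
  have h4 : Module.finrank K (permConstants K G α).toSubmodule = 1 :=
    finrank_span_singleton fun e => one_ne_zero (congrFun e (Classical.arbitrary α))
  have h5 := finrank_sz (G := G) (α := α) (K := K)
  rw [← Nat.card_eq_fintype_card, h] at h5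
  have h6 := Submodule.finrank_mono h₁
  have h7 := Submodule.finrank_mono h₂
  by_cases r1 : r = 1
  · exact Or.inl (Subrepresentation.toSubmodule_injective
      (Submodule.eq_of_le_of_finrank_eq h₁ (by omega)).symm)
  by_cases r2 : r + 1 = p
  · exact Or.inr (Subrepresentation.toSubmodule_injective
      (Submodule.eq_of_le_of_finrank_eq h₂ (by omega)))
  refine absurd (solv_of_affine e fun g => ?_) hG
  obtain ⟨a, b, hab⟩ := affine_of_inv (K := K) (r := r) (by omega) (by omega)
    (π := fun x => e.symm (g • e x))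
    (e.symm.injective.comp ((MulAction.injective g).comp e.injective)) (by
      rw [← hW]
      rintro _ ⟨f, hf, rfl⟩
      exact ⟨_, W.apply_mem_toSubmodule g⁻¹ hf, funext fun j => by simp [hL]⟩)
  exact ⟨a, b, fun x => by rw [← hab]; simp⟩

theorem zmod2 : ∀ x y : ZMod 2, x = 0 ∨ x = 1 ∧ ∀ z, z ≠ y → z = 1 * x + y := by decide

theorem burnside [Finite G] [Fintype α] [FaithfulSMul G α] [IsPretransitive G α]
    (h : Nat.card α = p) (hG : ¬ Group.IsSolvable G) : IsMultiplyPretransitive G α 2 := by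
  refine two_tr_of_heart (K := ZMod p) (f := 1) (by rw [h, pow_one]) fun W W' h1 h2 h3 => ?_
  by_contra hc
  push Not at hc
  have e1 := (heart_irr h hG W h1 (h2.le.trans h3)).resolve_right fun e => by
    rw [e] at h2; exact h2.not_ge h3
  have e2 := (heart_irr h hG W' (h1.trans h2.le) h3).resolve_left fun e => by
    rw [e] at h2; exact h2.not_ge h1
  subst e1 e2
  obtain ⟨c, e, -, he⟩ := exists_coord (G := G) h
  apply hG
  by_cases p2 : p = 2
  · refine solv_of_affine e fun g => ⟨1, e.symm (g • e 0), fun x => ?_⟩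
    subst p2
    rcases zmod2 x (e.symm (g • e 0)) with rfl | ⟨rfl, h⟩
    · simp
    · rw [← h (e.symm (g • e 1)) (by simp)]; simp
  refine solv_of_affine e fun g => ?_
  obtain ⟨b, hb⟩ := mem_const.1 (hc g⁻¹ (fun x => e.symm x) (by
    rw [mem_sz, Equiv.sum_comp e.symm (fun x => x)]
    simpa using FiniteField.sum_pow_lt_card_sub_one (ZMod p) 1 (by
      have := hp.out.two_le; rw [ZMod.card]; omega)))
  refine ⟨1, b, fun x => ?_⟩
  have := hb (e x)
  simp only [Pi.sub_apply, permRep_apply, inv_inv, Equiv.symm_apply_apply] at this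
  rw [← this]; simp

end PM
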