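import Cfsg.Agent.PM.Hom

namespace PM
open MulAction Function Subgroup Cfsg
open scoped Pointwise

variable {G α : Type*} [Group G] [MulAction G α] {p : ℕ} [hp : Fact p.Prime]

theorem dvd_of_normal [Finite G] [Finite α] [FaithfulSMul G α] [IsPretransitive G α]
    (h : Nat.card α = p) (N : Subgroup G) [N.Normal] (h0 : N ≠ ⊥) :
    IsPretransitive N α ∧ p ∣ Nat.card N := by
  haveI := IsPreprimitive.of_prime_card (G := G) (X := α) (h ▸ hp.out)
  haveI := nonempty_of_ne_bot (α := α) h0
  haveI : IsPretransitive N α := tr_iff.2 (normal_tr' N h0)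
  exact ⟨this, by rw [← card_mul_stab (G := N) (Classical.arbitrary α), h]; exact dvd_mul_right _ _⟩

theorem card_of_norm [Finite G] [Finite α] [FaithfulSMul G α] [IsPretransitive G α]
    (h : Nat.card α = p) (P : Sylow p G)
    (h1 : Nat.card (normalizer ((P : Subgroup G) : Set G)) = p) : Nat.card G = p := by
  have h2 := (card_norm h P).1
  have h3 : normalizer ((P : Subgroup G) : Set G) = P :=
    (eq_of_le_of_card_ge le_normalizer (by rw [h1]; exact h2.ge)).symm
  haveI : IsCyclic (P : Subgroup G) := isCyclic_of_prime_card h2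
  have h4 : normalizer ((P : Subgroup G) : Set G) ≤ centralizer (P : Set G) := by
    rw [h3]; exact le_centralizer (P : Subgroup G)
  have h5 := MonoidHom.ker_transferSylow_isComplement' P h4
  by_cases h6 : (MonoidHom.transferSylow P h4).ker = ⊥
  · rw [← h5.card_mul, h6, card_bot, one_mul, h2]
  · exact absurd (dvd_of_normal h _ h6).2 (MonoidHom.not_dvd_card_ker_transferSylow P h4)

theorem solv_of_normal [Finite G] [Finite α] [FaithfulSMul G α] [IsPretransitive G α]
    (h : Nat.card α = p) (N : Subgroup G) [N.Normal] (h0 : N ≠ ⊥) (hs : Group.IsSolvable N) :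
    Group.IsSolvable G := by
  obtain ⟨P⟩ : Nonempty (Sylow p G) := inferInstance
  obtain ⟨c, e, h1, h2, he⟩ := sylow_coord h P
  obtain ⟨M, q, -, m1, m2, -, m3, -⟩ := H1.exists_minimal_normal_elementary N hs h0
  have mt := (dvd_of_normal h M m2).1
  have mc : Nat.card M = p := (card_reg mt (e 0) (sub_stab_bot.2 fun m hm e => eq_one_of_comm mt
    (fun n hn => congrArg Subtype.val (m3.is_comm.comm (⟨n, hn⟩ : M) ⟨m, hm⟩)) e)).trans h
  have h3 : M = zpowers c := by
    refine eq_of_le_of_card_ge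
      (h2 ▸ (IsPGroup.of_card (mc.trans (pow_one p).symm)).le_sylow_of_normal P) ?_
    rw [mc, Nat.card_zpowers, h1]
  exact solv_of_affine e fun g => affine_of_norm he (h3 ▸ m1.conj_mem c (h3 ▸ mem_zpowers c) g)

theorem exists_conj_mem {S : Type*} [Group S] [Finite S] (G : Subgroup S)
    (h : p ^ (Nat.card S).factorization p ∣ Nat.card G) {σ : S} (hσ : σ ^ p = 1) :
    ∃ τ : S, τ * σ * τ⁻¹ ∈ G := by
  obtain ⟨Q, hQ⟩ := Sylow.exists_subgroup_card_pow_prime p h
  let Q' : Sylow p S := Sylow.ofCard (Q.map G.subtype)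
    (by rw [card_map_of_injective G.subtype_injective, hQ])
  obtain ⟨R, hR⟩ := (show IsPGroup p (zpowers σ) by
    rintro ⟨_, n, rfl⟩
    refine ⟨1, Subtype.ext ?_⟩
    change (σ ^ n) ^ p ^ 1 = 1
    rw [pow_one, ← zpow_natCast, ← zpow_mul, mul_comm, zpow_mul, zpow_natCast, hσ,
      one_zpow]).exists_le_sylow
  obtain ⟨τ, hτ⟩ := exists_smul_eq S R Q'
  refine ⟨τ, map_subtype_le Q ?_⟩
  change _ ∈ (Q' : Subgroup S)
  rw [← hτ]
  exact smul_mem_pointwise_smul σ (MulAut.conj τ) R (hR (mem_zpowers σ))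

theorem dvd_of_mt [Finite α] [Finite G] {k : ℕ} (h : IsMultiplyPretransitive G α k)
    (hk : k ≤ Nat.card α) : (Nat.card α).descFactorial k ∣ Nat.card G := by
  haveI := Fintype.ofFinite α
  obtain ⟨s, -, hs⟩ := Finset.exists_subset_card_eq (s := (Finset.univ : Finset α)) (n := k)
    (by rwa [Finset.card_univ, ← Nat.card_eq_fintype_card])
  have h1 := h.index_of_fixingSubgroup_mul (s := s) (by simpa using hs)
  rw [← Nat.factorial_mul_descFactorial hk, mul_comm] at h1
  exact Nat.eq_of_mul_eq_mul_left (Nat.factorial_pos _) h1 ▸ index_dvd_card _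

theorem alt_le_of_dvd [Fintype α] [DecidableEq α] (G : Subgroup (Equiv.Perm α))
    (hG : IsPreprimitive G α) (h3 : 3 ≤ Fintype.card α) (hp : p = 2 ∨ p = 3)
    (h : p ^ (Fintype.card α).factorial.factorization p ∣ Nat.card G) : alternatingGroup α ≤ G := by
  obtain ⟨a, b, c, -, -, -, hab, hac, hbc⟩ :=
    (Finset.two_lt_card_iff (s := (Finset.univ : Finset α))).1 h3
  rw [← Nat.card_eq_fintype_card, ← Nat.card_perm] at h
  have key : ∀ σ : Equiv.Perm α, σ ^ p = 1 → σ ≠ 1 → σ.support.card ≤ 3 → alternatingGroup α ≤ G :=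
    fun σ h1 h2 h3 => by
      obtain ⟨τ, hτ⟩ := exists_conj_mem G h h1
      exact alt_le_of_supp G hG hτ (by simpa using h2) (by rwa [Equiv.Perm.card_support_conj])
  rcases hp with rfl | rfl
  · exact key (Equiv.swap a b) (by simp [sq]) (by simpa) (by rw [Equiv.Perm.card_support_swap hab]; omega)
  · have := Equiv.Perm.isThreeCycle_swap_mul_swap_same hab hac hbc
    exact key _ (this.orderOf ▸ pow_orderOf_eq_one _) this.ne_one this.card_support.le

theorem solv_of_sqfree {G : Type*} [Group G] [Finite G] (h : Squarefree (Nat.card G)) :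
    Group.IsSolvable G := by
  haveI := IsZGroup.of_squarefree h
  infer_instance

end PM
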